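import Cfsg.Agent.ChevTw.TwBN
import Cfsg.Agent.ChevGrp.BorelTits

/-!
The theorem of Borel and Tits for a twisted group: the best point is sought among the elements of the
twisted group and the cocharacters compatible with the twist, so that the parabolic subgroup found is
stable under the twist and is moved to a standard one inside the twisted group.
-/

set_option autoImplicit false

namespace Cfsg.Agent.LieBlocks29

open Cfsg.Lie Cfsg.Agent.ChevGrp Cfsg.Agent.ChevTw

variable {D : ChevalleyDatum} {F : Type*} [Field F] {G : Type*} [Group G] {len : ℕ → ℕ}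
  {S : Sys D F G} {T : Twist S} {ι : Type*} {O : Orbits T ι}

/-- A strictly dominant cocharacter on which the twist only rescales the roots, by factors constant on
the orbits of the Weyl group. -/
structure LevData (T : Twist S) (len : ℕ → ℕ) where
  κ : ℕ → ℝ
  κ_pos : ∀ r < D.nroots, 0 < κ r
  κ_reflect : ∀ i : Fin D.rank, ∀ r < D.nroots, κ (D.reflectRoot i r) = κ r
  l₀ : Fin D.rank → ℝ
  l₀_pos : ∀ i : Fin D.rank, 0 < pairR D len l₀ (D.simple i)
  l₀_inv : ∀ r < D.nroots, pairR D len l₀ (T.ρ r) = κ r * pairR D len l₀ r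

namespace LevData

variable (Λ : LevData T len)

/-- The cocharacters scaled by the twist as `l₀` is. -/
def Inv (l : Fin D.rank → ℝ) : Prop :=
  ∀ r < D.nroots, pairR D len l (T.ρ r) = Λ.κ r * pairR D len l r

theorem inv_l₀ : Λ.Inv Λ.l₀ := Λ.l₀_inv

theorem inv_smul {l : Fin D.rank → ℝ} (h : Λ.Inv l) (a : ℝ) : Λ.Inv (a • l) := fun r hr => by
  rw [RootTable.pairR_smul, RootTable.pairR_smul, h r hr]; ring

theorem inv_add {l k : Fin D.rank → ℝ} (h : Λ.Inv l) (h' : Λ.Inv k) : Λ.Inv (l + k) := fun r hr => by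
  rw [RootTable.pairR_add, RootTable.pairR_add, h r hr, h' r hr]; ring

theorem isClosed_inv : IsClosed {l : Fin D.rank → ℝ | Λ.Inv l} := by
  have e : {l : Fin D.rank → ℝ | Λ.Inv l} = ⋂ r : Fin D.nroots,
      {l | pairR D len l (T.ρ r) = Λ.κ r * pairR D len l r} := by
    ext l; simp [Inv, Fin.forall_iff]
  rw [e]
  exact isClosed_iInter fun r => isClosed_eq (RootTable.continuous_pairR _)
    (continuous_const.mul (RootTable.continuous_pairR _))

theorem κ_act (hR : RootTable D len) (w : List (Fin D.rank)) {r : ℕ} (hr : r < D.nroots) :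
    Λ.κ (act D w r) = Λ.κ r := by
  induction w with
  | nil => rfl
  | cons i w ih => rw [act_cons, Λ.κ_reflect i _ (hR.act_lt w hr), ih]

theorem inv_move (hR : RootTable D len) {w : List (Fin D.rank)} (hw : T.Comm w)
    {l k : Fin D.rank → ℝ} (hl : Λ.Inv l)
    (hk : ∀ r < D.nroots, pairR D len k r = pairR D len l (act D w r)) : Λ.Inv k := fun r hr => by
  rw [hk _ (T.ρ_lt r hr), hw r hr, hl _ (hR.act_lt w hr), Λ.κ_act hR w hr, hk r hr]

theorem pair_iterate_sign {l : Fin D.rank → ℝ} (hl : Λ.Inv l) :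
    ∀ (k : ℕ) {r : ℕ}, r < D.nroots → T.ρ^[k] r < D.nroots ∧
      (pairR D len l r < 0 → pairR D len l (T.ρ^[k] r) < 0)
  | 0, r, hr => ⟨hr, fun h => h⟩
  | k + 1, r, hr => by
    obtain ⟨h1, h2⟩ := pair_iterate_sign hl k hr
    rw [Function.iterate_succ_apply']
    exact ⟨T.ρ_lt _ h1, fun h => by rw [hl _ h1]; exact mul_neg_of_pos_of_neg (Λ.κ_pos _ h1) (h2 h)⟩

theorem l₀_pos' (hR : RootTable D len) {r : ℕ} (hr : D.IsPosRoot r) : 0 < pairR D len Λ.l₀ r := by
  obtain ⟨i, hi⟩ := Function.ne_iff.1 (hR.vec_ne_zero r hr.1)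
  have hv := (hR.isPosRoot_iff r hr.1).1 hr
  have hl : ∀ j, 0 < Λ.l₀ j := fun j => by
    have := Λ.l₀_pos j
    rw [hR.pairR_simple] at this
    exact pos_of_mul_pos_right this (by have := hR.one_le_len j; linarith)
  refine Finset.sum_pos' (fun j _ => mul_nonneg (by exact_mod_cast hv j) (hl j).le)
    ⟨i, Finset.mem_univ _, mul_pos ?_ (hl i)⟩
  exact_mod_cast lt_of_le_of_ne (hv i) (Ne.symm hi)

end LevData

theorem ν_iterate_simple (k : ℕ) (i : Fin D.rank) : T.ρ^[k] (D.simple i) = D.simple (T.ν^[k] i) := by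
  induction k with
  | zero => rfl
  | succ k ih => rw [Function.iterate_succ_apply', Function.iterate_succ_apply', ih, T.ρ_simple]

/-- A compatible cocharacter is moved to a dominant one by a word of the twisted Weyl group. -/
theorem exists_dominant (hR : RootTable D len) (Λ : LevData T len) (O : Orbits T ι)
    {l : Fin D.rank → ℝ} (hl : Λ.Inv l) :
    ∃ ks : List ι, ∀ i : Fin D.rank, 0 ≤ pairR D len l (act D (O.word ks) (D.simple i)) := by
  suffices h : ∀ n : ℕ, ∀ ks : List ι,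
      {r | D.IsPosRoot r ∧ pairR D len l (act D (O.word ks) r) < 0}.ncard = n →
      ∃ ks : List ι, ∀ i : Fin D.rank, 0 ≤ pairR D len l (act D (O.word ks) (D.simple i)) from
    h _ [] rfl
  intro n
  induction n using Nat.strong_induction_on with
  | _ n ih =>
    intro ks hn
    by_cases hd : ∀ i : Fin D.rank, 0 ≤ pairR D len l (act D (O.word ks) (D.simple i))
    · exact ⟨ks, hd⟩
    push Not at hd
    obtain ⟨i, hi⟩ := hd
    obtain ⟨J, hJ⟩ := O.cover i
    obtain ⟨k, hk⟩ := hR.exists_moveR (O.word ks) l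
    have hkI : Λ.Inv k := Λ.inv_move hR (O.comm_word hR ks) hl hk
    have hneg : ∀ r ∈ O.posJ J, pairR D len k r < 0 := by
      intro r hr
      have hs : ∀ j : Fin D.rank, (j : ℕ) ∈ O.nodes J → k j < 0 := by
        intro j hj
        obtain ⟨m, rfl⟩ := O.trans J i j hJ hj
        have h1 := (Λ.pair_iterate_sign hkI m (hR.simple_lt i i.2)).2 (by
          rw [hk _ (hR.simple_lt i i.2)]; exact hi)
        rw [ν_iterate_simple, hR.pairR_simple] at h1
        exact neg_of_mul_neg_right h1 (by have := hR.one_le_len (T.ν^[m] i); linarith)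
      obtain ⟨j, hj⟩ := Function.ne_iff.1 (hR.vec_ne_zero r hr.1.1)
      have hv := (hR.isPosRoot_iff r hr.1.1).1 hr.1
      have h0 : ∀ j : Fin D.rank, (j : ℕ) ∉ O.nodes J → vec D len r j = 0 := fun j hj => by
        simp [vec, hr.2.2 j j.2 hj, -Array.getD_eq_getD_getElem?]
      have hpos : 0 < pairR D len (-k) r := by
        refine Finset.sum_pos' (fun j _ => ?_) ⟨j, Finset.mem_univ _, ?_⟩
        · by_cases hj : (j : ℕ) ∈ O.nodes J
          · exact mul_nonneg (by exact_mod_cast hv j) (neg_nonneg.2 (hs j hj).le)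
          · rw [h0 j hj]; simp
        · by_cases hjJ : (j : ℕ) ∈ O.nodes J
          · exact mul_pos (by exact_mod_cast lt_of_le_of_ne (hv j) (Ne.symm hj)) (neg_pos.2 (hs j hjJ))
          · exact absurd (h0 j hjJ) hj
      have e : pairR D len (-k) r = -pairR D len k r := by simp [pairR, mul_neg]
      rw [e] at hpos
      linarith
    have hsimp := hneg _ (O.simple_mem hR hJ)
    refine ih _ ?_ (ks ++ [J]) rfl
    rw [← hn]
    set A := {r | D.IsPosRoot r ∧ pairR D len l (act D (O.word (ks ++ [J])) r) < 0}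
    set B := {r | D.IsPosRoot r ∧ pairR D len l (act D (O.word ks) r) < 0}
    have hfin : B.Finite := (Set.finite_lt_nat D.nroots).subset fun r hr => hr.1.1
    have hA : ∀ r ∈ A, r ∉ O.posJ J ∧ pairR D len k (act D (O.wJ J) r) < 0 := by
      rintro r ⟨hr, hlt⟩
      rw [O.word_append, O.word_singleton, act_append, ← hk _ (hR.act_lt _ hr.1)] at hlt
      refine ⟨fun hrJ => ?_, hlt⟩
      have h1 := O.act_wJ_mem hR J hrJ
      have hlt' := h1.1.1
      have h2 : D.neg (act D (O.wJ J) r) ∈ O.posJ J := by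
        refine ⟨(hR.pos_neg_iff hlt').2 h1.1, ?_⟩
        rw [hR.inRootSub_iff _ (hR.neg_lt _ hlt'), hR.deg_neg _ hlt', (hR.inRootSub_iff _ hlt').1 h1.2,
          neg_zero]
      have h3 := hneg _ h2
      rw [hR.pairR_neg_root k hlt'] at h3
      linarith
    have himg : act D (O.wJ J) '' A ⊆ B \ {D.simple i} := by
      rintro _ ⟨r, hr, rfl⟩
      obtain ⟨h1, h2⟩ := hA r hr
      obtain ⟨h3, h4⟩ := O.act_wJ_out hR J hr.1 h1
      refine ⟨⟨h3, by rw [← hk _ h3.1]; exact h2⟩, fun e => h4 ?_⟩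
      rw [Set.mem_singleton_iff.1 e]
      exact O.simple_mem hR hJ
    calc A.ncard = (act D (O.wJ J) '' A).ncard :=
          (Set.InjOn.ncard_image fun a ha b hb e => hR.act_inj _ ha.1.1 hb.1.1 e).symm
      _ ≤ (B \ {D.simple i}).ncard := Set.ncard_le_ncard himg hfin.sdiff
      _ < B.ncard := Set.ncard_sdiff_singleton_lt_of_mem
          ⟨hR.simple_pos i, by rw [← hk _ (hR.simple_lt i i.2)]; exact hsimp⟩ hfin

/-- The Bruhat decomposition inside the twisted group. -/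
theorem tw_bruhat (W : TwGroup O) (hS : Rules D F) (hR : RootTable D len) {g : G} (hg : g ∈ W.Tw) :
    ∃ b ∈ S.Bbar ⊓ W.Tw, ∃ (w : List (Fin D.rank)) (k : G), k ∈ S.Hbar ∧ T.Comm w ∧ Reduced D w ∧
      ∃ v ∈ S.Ubar, g = b * k * S.nW w * v := by
  obtain ⟨b, hb, w, hred, v, hv, e⟩ := S.mem_NF hS hR (W.Tw_le hg)
  obtain ⟨hwc, hvf, -⟩ := T.fixed_bruhat hS hR hb hv (by rw [← e]; exact W.fixed hg)
  obtain ⟨ks, hks⟩ := O.exists_word hS hR hwc
  obtain ⟨h1, h2, h3⟩ := W.prod_nJ hS hR ks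
  set p := (ks.map (W.nJ hS hR)).prod
  have hH : p * (S.nW w)⁻¹ ∈ S.Hbar :=
    TwGroup.mem_Hbar_of_conjP hS hR (mul_mem h1 (inv_mem (S.nW_mem_Nbar _)))
      (h2.mul hR ((S.conjP_nW hS hR _).inv hR)) fun r hr => by
        rw [act_append, ← hks _ (hR.act_lt _ hr), hR.act_act_reverse _ hr]
  have hvT : v ∈ W.Tw := W.fix_inv_mem hS hR hwc ⟨hv, hvf⟩
  refine ⟨g * v⁻¹ * p⁻¹, Subgroup.mem_inf.2 ⟨?_, mul_mem (mul_mem hg (inv_mem hvT)) (inv_mem h3)⟩,
    w, p * (S.nW w)⁻¹, hH, hwc, hred, v, S.US_mono (fun r hr => hr.1) hv, by group⟩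
  have e2 : g * v⁻¹ * p⁻¹ = b * (p * (S.nW w)⁻¹)⁻¹ := by rw [e]; group
  rw [e2]
  exact mul_mem hb (S.Hbar_le_Bbar (inv_mem hH))

/-- A point that is good and compatible with the twist. -/
def GoodT (W : TwGroup O) (Λ : LevData T len) (R : Subgroup G) (g : G) (l : Fin D.rank → ℝ) (c : ℝ) :
    Prop :=
  g ∈ W.Tw ∧ Λ.Inv l ∧ S.GoodPoint len R g l c

variable [Finite G]

theorem exists_max_goodT (W : TwGroup O) (hR : RootTable D len) (Λ : LevData T len) {R : Subgroup G}
    (hne : R ≠ ⊥) {g₀ : G} (hg₀ : g₀ ∈ W.Tw) (hU : ∀ x ∈ R, g₀⁻¹ * x * g₀ ∈ S.Ubar) :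
    ∃ g l c, GoodT W Λ R g l c ∧ ∀ g' l' c', GoodT W Λ R g' l' c' → c' ≤ c := by
  classical
  obtain ⟨x₀, hx₀, hx₀1⟩ : ∃ x ∈ R, x ≠ (1 : G) := by
    by_contra h
    push Not at h
    exact hne (R.eq_bot_iff_forall.2 h)
  -- a first good point
  obtain ⟨l₀, c₀, hgood⟩ : ∃ l c, GoodT W Λ R g₀ l c := by
    have hn : 0 < normR D len Λ.l₀ := by
      refine lt_of_le_of_ne (Finset.sum_nonneg fun _ _ => sq_nonneg _) fun h => ?_
      have h0 : (0 : ℕ) < D.rank := by have := hR.two_le_rank; omega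
      have := Λ.l₀_pos ⟨0, h0⟩
      rw [hR.normR_eq_zero h.symm] at this
      simp [pairR] at this
    set s := Real.sqrt (normR D len Λ.l₀)
    have hs : 0 < s := Real.sqrt_pos.2 hn
    set P := Finset.univ.filter fun r : Fin D.nroots => D.IsPosRoot r
    have hP : P.Nonempty :=
      ⟨⟨D.simple 0, hR.simple_lt 0 (by have := hR.two_le_rank; omega)⟩,
        Finset.mem_filter.2 ⟨Finset.mem_univ _, hR.simple_pos ⟨0, by have := hR.two_le_rank; omega⟩⟩⟩
    set m := P.inf' hP fun r => pairR D len Λ.l₀ r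
    have hm : 0 < m := (Finset.lt_inf'_iff hP).2 fun r hr => Λ.l₀_pos' hR (Finset.mem_filter.1 hr).2
    refine ⟨s⁻¹ • Λ.l₀, s⁻¹ * m, hg₀, Λ.inv_smul Λ.inv_l₀ _, W.Tw_le hg₀, ?_, by positivity,
      fun x hx => S.US_mono (fun r hr => ?_) (hU x hx)⟩
    · rw [RootTable.normR_smul, inv_pow, Real.sq_sqrt hn.le]
      exact inv_mul_cancel₀ hn.ne'
    · refine ⟨hr.1, ?_⟩
      rw [RootTable.pairR_smul]
      exact mul_le_mul_of_nonneg_left
        (Finset.inf'_le _ (show (⟨r, hr.1⟩ : Fin D.nroots) ∈ P from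
          Finset.mem_filter.2 ⟨Finset.mem_univ _, hr⟩)) (inv_pos.2 hs).le
  set K := {l : Fin D.rank → ℝ | normR D len l = 1 ∧ Λ.Inv l}
  have hK : IsCompact K := (hR.isCompact_sphereR).inter_right Λ.isClosed_inv
  let I := {q : G × Finset (Fin D.nroots) //
    q.2.Nonempty ∧ q.1 ∈ W.Tw ∧ ∀ x ∈ R, q.1⁻¹ * x * q.1 ∈ S.US (Fin.val '' (q.2 : Set (Fin D.nroots)))}
  have hopt : ∀ q : I, ∃ l ∈ K, ∀ l' ∈ K, q.1.2.inf' q.2.1 (fun r => pairR D len l' r.val) ≤
      q.1.2.inf' q.2.1 (fun r => pairR D len l r.val) := fun q =>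
    hK.exists_isMaxOn ⟨l₀, hgood.2.2.2.1, hgood.2.1⟩
      (Continuous.continuousOn (Continuous.finset_inf'_apply q.2.1 fun r _ => RootTable.continuous_pairR r.val))
  choose lopt hlopt hbest using hopt
  let val : I → ℝ := fun q => q.1.2.inf' q.2.1 (fun r => pairR D len (lopt q) r.val)
  have key : ∀ g l c, GoodT W Λ R g l c → ∃ q : I, c ≤ val q := by
    rintro g l c ⟨hgT, hlI, hg, hl, hc, hmem⟩
    let A := Finset.univ.filter fun r : Fin D.nroots => c ≤ pairR D len l r.val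
    have hA : Fin.val '' (A : Set (Fin D.nroots)) = levelR D len l c := by
      ext r
      constructor
      · rintro ⟨s, hs, rfl⟩
        exact ⟨s.2, (Finset.mem_filter.1 hs).2⟩
      · rintro ⟨hr, h⟩
        exact ⟨⟨r, hr⟩, Finset.mem_filter.2 ⟨Finset.mem_univ _, h⟩, rfl⟩
    have hAne : A.Nonempty := by
      obtain ⟨r, hr⟩ := S.nonempty_of_ne_one (hmem x₀ hx₀) (fun e => hx₀1 (by
        rw [mul_assoc, inv_mul_eq_one] at e
        exact mul_right_cancel (e.symm.trans (one_mul g).symm)))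
      exact ⟨⟨r, hr.1⟩, Finset.mem_filter.2 ⟨Finset.mem_univ _, hr.2⟩⟩
    refine ⟨⟨(g, A), hAne, hgT, fun x hx => by rw [hA]; exact hmem x hx⟩, ?_⟩
    refine le_trans ?_ (hbest _ l ⟨hl, hlI⟩)
    exact Finset.le_inf' hAne _ fun r hr => (Finset.mem_filter.1 hr).2
  obtain ⟨q₀, hq₀⟩ := key _ _ _ hgood
  have : Nonempty I := ⟨q₀⟩
  obtain ⟨q, hq⟩ := Finite.exists_max val
  have hpos : 0 < val q := lt_of_lt_of_le hgood.2.2.2.2.1 (le_trans hq₀ (hq q₀))
  refine ⟨q.1.1, lopt q, val q, ⟨q.2.2.1, (hlopt q).2, W.Tw_le q.2.2.1, (hlopt q).1, hpos,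
    fun x hx => S.US_mono ?_ (q.2.2.2 x hx)⟩, fun g' l' c' h' => ?_⟩
  · rintro _ ⟨s, hs, rfl⟩
    exact ⟨s.2, Finset.inf'_le _ hs⟩
  · obtain ⟨q', hq'⟩ := key _ _ _ h'
    exact le_trans hq' (hq q')

/-- The roots of the nodes killed by a cocharacter. -/
def zeroNodes (D : ChevalleyDatum) (len : ℕ → ℕ) (l : Fin D.rank → ℝ) : Set ℕ :=
  {j | ∃ i : Fin D.rank, (i : ℕ) = j ∧ pairR D len l (D.simple i) = 0}

/-- Borel–Tits inside the twisted group. -/
theorem borel_tits_tw (W : TwGroup O) (hS : Rules D F) (hR : RootTable D len) (Λ : LevData T len)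
    {R : Subgroup G} (hne : R ≠ ⊥) {g₀ : G} (hg₀ : g₀ ∈ W.Tw)
    (hU : ∀ x ∈ R, g₀⁻¹ * x * g₀ ∈ S.Ubar) :
    ∃ g ∈ W.Tw, ∃ l : Fin D.rank → ℝ, Λ.Inv l ∧
      (∀ i : Fin D.rank, 0 ≤ pairR D len l (D.simple i)) ∧
      (∃ i, i < D.rank ∧ i ∉ zeroNodes D len l) ∧
      (∀ n ∈ Subgroup.normalizer (R : Set G), n ∈ W.Tw → g⁻¹ * n * g ∈ S.PJ (zeroNodes D len l)) ∧
      ∀ x ∈ R, g⁻¹ * x * g ∈ S.UJ (zeroNodes D len l) := by
  obtain ⟨g₁, l₁, c, ⟨hg₁, hI₁, -, hl₁, hc, hmem₁⟩, hmax⟩ := exists_max_goodT W hR Λ hne hg₀ hU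
  obtain ⟨ks, hks⟩ := exists_dominant hR Λ O hI₁
  obtain ⟨l, hl⟩ := hR.exists_moveR (O.word ks) l₁
  have hd : ∀ i : Fin D.rank, 0 ≤ pairR D len l (D.simple i) := fun i => by
    rw [hl _ (hR.simple_lt i i.2)]
    exact hks i
  have hnl : normR D len l = 1 := (hR.normR_move hl).trans hl₁
  have hIl : Λ.Inv l := Λ.inv_move hR (O.comm_word hR ks) hI₁ hl
  obtain ⟨-, hpc, hpT⟩ := W.prod_nJ hS hR ks
  set p := (ks.map (W.nJ hS hR)).prod
  set g := g₁ * p with hgdef
  have hgT : g ∈ W.Tw := mul_mem hg₁ hpT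
  have hg : g ∈ S.Gbar := W.Tw_le hgT
  have hmem : ∀ x ∈ R, g⁻¹ * x * g ∈ S.US (levelR D len l c) := by
    intro x hx
    have h1 := conjP_mem_US (hpc.inv hR) (A := levelR D len l₁ c) (fun r hr => hr.1) (hmem₁ x hx)
    rw [inv_inv] at h1
    rw [hgdef, mul_inv_rev, show p⁻¹ * g₁⁻¹ * x * (g₁ * p) = p⁻¹ * (g₁⁻¹ * x * g₁) * p by group]
    refine S.US_mono ?_ h1
    rintro _ ⟨r, hr, rfl⟩
    refine ⟨hR.act_lt _ hr.1, ?_⟩
    rw [hl _ (hR.act_lt _ hr.1), hR.act_act_reverse _ hr.1]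
    exact hr.2
  refine ⟨g, hgT, l, hIl, hd, ?_, fun n hn hnT => ?_, fun x hx => S.US_mono (fun r hr => ?_) (hmem x hx)⟩
  · by_contra h
    push Not at h
    have : l = 0 := hR.eq_zero_of_pairR fun i => by
      obtain ⟨j, hj, e⟩ := h i i.2
      exact Fin.ext hj ▸ e
    rw [this] at hnl
    simp [normR, pairR] at hnl
  · -- `n g` is as good as `g`
    have hmem' : ∀ x ∈ R, (n * g)⁻¹ * x * (n * g) ∈ S.US (levelR D len l c) := fun x hx => by
      have hx' : n⁻¹ * x * n ∈ R := by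
        have := (Subgroup.mem_normalizer_iff.1 (inv_mem hn) x).1 hx
        simpa using this
      simpa [mul_assoc] using hmem _ hx'
    obtain ⟨b, hb, w, k₀, hk₀, hwc, hred, v, hv, e⟩ :=
      tw_bruhat W hS hR (mul_mem (mul_mem (inv_mem hgT) hnT) hgT)
    obtain ⟨hbB, hbT⟩ := Subgroup.mem_inf.1 hb
    have hvB : v ∈ S.Bbar := S.Ubar_le_Bbar hv
    have hbk : b * k₀ ∈ S.Bbar := mul_mem hbB (S.Hbar_le_Bbar hk₀)
    have hNb := S.levelR_le_normalizer hS hR hd hc
    obtain ⟨k', hk'⟩ := hR.exists_moveR w.reverse l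
    have hk : ∀ r < D.nroots, pairR D len l r = pairR D len k' (act D w r) := fun r hr => by
      rw [hk' _ (hR.act_lt w hr), hR.act_reverse_act w hr]
    set k := g * (b * k₀)
    have hkk : n * g = k * S.nW w * v := by
      have := congrArg (g * ·) e
      simpa [k, mul_assoc] using this
    have hkmem : ∀ x ∈ R, k⁻¹ * x * k ∈ S.US (levelR D len l c ∩ levelR D len k' c) := by
      intro x hx
      have h1 : k⁻¹ * x * k ∈ S.US (levelR D len l c) := by
        have := (Subgroup.mem_normalizer_iff.1 (hNb (inv_mem hbk)) _).1 (hmem x hx)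
        simpa [k, mul_assoc] using this
      have h2 := (Subgroup.mem_normalizer_iff.1 (hNb hvB) _).1 (hmem' x hx)
      rw [hkk, show v * ((k * S.nW w * v)⁻¹ * x * (k * S.nW w * v)) * v⁻¹ =
        (S.nW w)⁻¹ * (k⁻¹ * x * k) * S.nW w by simp [mul_assoc]] at h2
      have e3 : S.nW w * ((S.nW w)⁻¹ * (k⁻¹ * x * k) * S.nW w) * (S.nW w)⁻¹ = k⁻¹ * x * k := by
        simp [mul_assoc]
      have h3 := S.levelR_inter hS hR hd hd hc w hk h2 (by rw [e3]; exact h1)
      rwa [e3] at h3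
    -- strict convexity
    have hnk' : normR D len k' = 1 := (hR.normR_move hk').trans hnl
    have hIk' : Λ.Inv k' := Λ.inv_move hR (hwc.reverse hR) hIl hk'
    have heq : l = k' := by
      by_contra hlk
      have hpar := RootTable.normR_parallelogram (len := len) l k'
      have hsub : 0 < normR D len (l - k') :=
        lt_of_le_of_ne (Finset.sum_nonneg fun _ _ => sq_nonneg _)
          fun h => hlk (sub_eq_zero.1 (hR.normR_eq_zero h.symm))
      rw [hnl, hnk'] at hpar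
      obtain ⟨x₀, hx₀, hx₀1⟩ : ∃ x ∈ R, x ≠ (1 : G) := by
        by_contra h
        push Not at h
        exact hne (R.eq_bot_iff_forall.2 h)
      obtain ⟨r, hr, hr'⟩ := S.nonempty_of_ne_one (hkmem x₀ hx₀) (fun e => hx₀1 (by
        rw [mul_assoc, inv_mul_eq_one] at e
        exact mul_right_cancel (e.symm.trans (one_mul k).symm)))
      have hsq := RootTable.sq_le_normR (len := len) (l := l + k') hr.1
      rw [RootTable.pairR_add] at hsq
      have hN : 0 < normR D len (l + k') := by nlinarith [hr.2, hr'.2]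
      set s := Real.sqrt (normR D len (l + k'))
      have hs : 0 < s := Real.sqrt_pos.2 hN
      have hs2 : s < 2 := by
        rw [Real.sqrt_lt' (by norm_num)]
        linarith
      have hgood : GoodT W Λ R (g * b) (s⁻¹ • (l + k')) (2 * c / s) := by
        refine ⟨mul_mem hgT hbT, Λ.inv_smul (Λ.inv_add hIl hIk') _, mul_mem hg (W.Tw_le hbT), ?_,
          by positivity, fun x hx => S.US_mono
          (show levelR D len l c ∩ levelR D len k' c ⊆ levelR D len (s⁻¹ • (l + k')) (2 * c / s) from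
            fun r hr => ⟨hr.1.1, ?_⟩) ?_⟩
        · rw [RootTable.normR_smul, inv_pow, Real.sq_sqrt hN.le]
          exact inv_mul_cancel₀ hN.ne'
        · rw [RootTable.pairR_smul, RootTable.pairR_add, div_eq_inv_mul]
          exact mul_le_mul_of_nonneg_left (by linarith [hr.1.2, hr.2.2]) (inv_pos.2 hs).le
        · have h1 := (Subgroup.mem_normalizer_iff.1 (S.Hbar_le_normalizer_US hS hR
            (T := levelR D len l c ∩ levelR D len k' c) (fun r hr => hr.1.1) hk₀) _).1 (hkmem x hx)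
          simpa [k, mul_assoc] using h1
      have := hmax _ _ _ hgood
      rw [div_le_iff₀ hs] at this
      nlinarith
    subst heq
    rw [e]
    exact mul_mem (mul_mem (Subgroup.mem_sup_left hbk)
      (S.nW_mem_PJ_of_fix hS hR hd hred fun r hr => (hk r hr).symm))
      (Subgroup.mem_sup_left hvB)
  · refine ⟨hR.levelR_pos hd hc hr, fun hJ => ?_⟩
    have := hR.inRootSub_pairR hJ
    linarith [hr.2]

end Cfsg.Agent.LieBlocks29
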