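import Cfsg.Agent.LieBlocks29.TwBT
import Cfsg.Agent.ChevBlocks.Central
import Cfsg.Agent.ChevTwSec.TwParabolic
import Cfsg.Agent.Opp34.SplitBN

/-!
In a twisted group an element of order prime to `p` centralising a nontrivial radical `p`-subgroup is
trivial.  The element is moved into a standard parabolic and centralises the fixed part of its unipotent
radical; the latter moves every root of the radical.
-/

set_option autoImplicit false

namespace Cfsg.Agent.LieBlocks29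

open Cfsg.Lie Cfsg.Agent.ChevGrp Cfsg.Agent.ChevTw

section General

variable {D : ChevalleyDatum} {F : Type*} [Field F] {G : Type*} [Group G] {len : ℕ → ℕ}
  {S : Sys D F G} {T : Twist S} {ι : Type*} {O : Orbits T ι} (Λ : LevData T len)

/-- The roots of level at least that of `s`, other than `s`. -/
def above (s : ℕ) : Set ℕ := levelR D len Λ.l₀ (pairR D len Λ.l₀ s) \ {s}

theorem pair_iterate :
    ∀ (k : ℕ) {s : ℕ}, s < D.nroots → T.ρ^[k] s < D.nroots ∧
      ∃ f : ℝ, 0 < f ∧ ∀ l, Λ.Inv l → pairR D len l (T.ρ^[k] s) = f * pairR D len l s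
  | 0, s, hs => ⟨hs, 1, one_pos, fun l _ => (one_mul _).symm⟩
  | k + 1, s, hs => by
    obtain ⟨h1, f, hf, h2⟩ := pair_iterate k hs
    rw [Function.iterate_succ_apply']
    exact ⟨T.ρ_lt _ h1, Λ.κ (T.ρ^[k] s) * f, mul_pos (Λ.κ_pos _ h1) hf, fun l hl => by
      rw [hl _ h1, h2 l hl, mul_assoc]⟩

theorem comm_iterate {w : List (Fin D.rank)} (hw : T.Comm w) :
    ∀ (k : ℕ) {s : ℕ}, s < D.nroots →
      T.ρ^[k] s < D.nroots ∧ act D w (T.ρ^[k] s) = T.ρ^[k] (act D w s)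
  | 0, s, hs => ⟨hs, rfl⟩
  | k + 1, s, hs => by
    obtain ⟨h1, h2⟩ := comm_iterate hw k hs
    rw [Function.iterate_succ_apply', Function.iterate_succ_apply']
    exact ⟨T.ρ_lt _ h1, by rw [hw _ h1, h2]⟩

theorem above_ideal (hR : RootTable D len) {s q r : ℕ} (hs : D.IsPosRoot s) (hq : D.IsPosRoot q)
    (hr : r ∈ above Λ s) (hne : r ≠ q) {c : ℕ × ℤ × ℕ × ℕ}
    (hc : c ∈ D.commTerms q r ∨ c ∈ D.commTerms r q) : c.1 ∈ above Λ s := by
  have hc0 : 0 < pairR D len Λ.l₀ s := Λ.l₀_pos' hR hs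
  have hd : ∀ i : Fin D.rank, 0 ≤ pairR D len Λ.l₀ (D.simple i) := fun i => (Λ.l₀_pos i).le
  have hrp : D.IsPosRoot r := hR.levelR_pos hd hc0 hr.1
  have hqp := Λ.l₀_pos' hR hq
  have key : ∀ a b : ℕ, 0 < a → 0 < b → ∀ v : ℕ,
      vec D len v = (a : ℤ) • vec D len r + (b : ℤ) • vec D len q →
        pairR D len Λ.l₀ s < pairR D len Λ.l₀ v := by
    intro a b ha hb v hv
    rw [RootTable.pairR_lin Λ.l₀ hv]
    have h1 : (1 : ℝ) ≤ ((a : ℤ) : ℝ) := by exact_mod_cast ha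
    have h2 : (1 : ℝ) ≤ ((b : ℤ) : ℝ) := by exact_mod_cast hb
    have h3 := hr.1.2
    nlinarith
  obtain ⟨hlt, hgt⟩ : c.1 < D.nroots ∧ pairR D len Λ.l₀ s < pairR D len Λ.l₀ c.1 := by
    rcases hc with hc | hc
    · obtain ⟨h1, h2, h3, h4⟩ := hR.commTerms_vec q hq.1 r hrp.1 hne
        (hR.posSet_closed.ne_neg hR hq hrp) c hc
      exact ⟨h1, key _ _ h3 h2 _ (by rw [h4, add_comm])⟩
    · obtain ⟨h1, h2, h3, h4⟩ := hR.commTerms_vec r hrp.1 q hq.1 hne.symm
        (hR.posSet_closed.ne_neg hR hrp hq) c hc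
      exact ⟨h1, key _ _ h2 h3 _ h4⟩
  exact ⟨⟨hlt, hgt.le⟩, fun e => hgt.ne' (by rw [Set.mem_singleton_iff.1 e])⟩

theorem above_pos (hR : RootTable D len) {s : ℕ} (hs : D.IsPosRoot s) : above Λ s ⊆ posSet D :=
  fun _ hr => hR.levelR_pos (fun i => (Λ.l₀_pos i).le) (Λ.l₀_pos' hR hs) hr.1

theorem above_closed (hR : RootTable D len) {s : ℕ} (hs : D.IsPosRoot s) :
    UClosed D len (htHom D) (above Λ s) :=
  hR.posSet_closed.subset_closed (above_pos Λ hR hs) fun _ hq _ hr hne _ hc =>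
    above_ideal Λ hR hs (above_pos Λ hR hs hq) hr hne (Or.inl hc)

theorem Bbar_le_normalizer_above (hS : Rules D F) (hR : RootTable D len) {s : ℕ} (hs : D.IsPosRoot s) :
    S.Bbar ≤ Subgroup.normalizer (S.US (above Λ s) : Set G) :=
  sup_le (S.mem_normalizer_of_ideal hR hR.posSet_closed (above_pos Λ hR hs)
    fun _ hq _ hr hne _ hc => above_ideal Λ hR hs hq hr hne (Or.inl hc))
    (S.Hbar_le_normalizer_US hS hR fun r hr => (above_pos Λ hR hs hr).1)

/-- Every positive root is the twist of one detected by a fixed unipotent element at its level. -/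
def Rich (W : TwGroup O) : Prop :=
  ∀ r, D.IsPosRoot r → ∃ s k, D.IsPosRoot s ∧ T.ρ^[k] s = r ∧
    ∃ y ∈ S.Ubar ⊓ W.Tw, y ∈ S.US (levelR D len Λ.l₀ (pairR D len Λ.l₀ s)) ∧ y ∉ S.US (above Λ s)

/-- Every root of an orbit is the twist of a lowest root of some fixed element of the orbit. -/
def OrbitRich (O : Orbits T ι) : Prop :=
  ∀ J, ∀ s₀ ∈ O.posJ J, ∃ s ∈ O.posJ J, ∃ k, T.ρ^[k] s = s₀ ∧ ∃ L : List ℕ, ∃ t : ℕ → F,
    Enum (O.posJ J) L ∧ t s ≠ 0 ∧ T.sig (S.P L t) = S.P L t ∧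
      ∀ x ∈ L, t x ≠ 0 → pairR D len Λ.l₀ s ≤ pairR D len Λ.l₀ x

/-- A root made negative by an orbit word is an image of a root of an orbit. -/
theorem exists_orbit_image (hR : RootTable D len) : ∀ (ks : List ι) {r : ℕ}, r ∈ invSet D (O.word ks) →
    ∃ ks' : List ι, ∃ J, ∃ s₀ ∈ O.posJ J, act D (O.word ks') s₀ = r := by
  intro ks
  induction ks using List.reverseRecOn with
  | nil => exact fun hr => absurd hr.2 (fun h => hR.not_pos_and_neg hr.1 h)
  | append_singleton ks J ih =>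
    intro r hr
    by_cases hJ : r ∈ O.posJ J
    · exact ⟨[], J, r, hJ, rfl⟩
    obtain ⟨h1, -⟩ := O.act_wJ_out hR J hr.1 hJ
    have h2 := hr.2
    rw [O.word_append, O.word_singleton, act_append] at h2
    obtain ⟨ks', K, s₀, hs₀, e⟩ := ih ⟨h1, h2⟩
    refine ⟨[J] ++ ks', K, s₀, hs₀, ?_⟩
    rw [O.word_append, O.word_singleton, act_append, e, O.winv J r hr.1.1]

theorem image_closed (hR : RootTable D len) (J : ι) {w : List (Fin D.rank)}
    (hpos : ∀ x ∈ O.posJ J, D.IsPosRoot (act D w x)) :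
    UClosed D len (htHom D) (act D w '' O.posJ J) := by
  refine hR.posSet_closed.subset_closed (Set.image_subset_iff.2 hpos) ?_
  rintro _ ⟨x, hx, rfl⟩ _ ⟨y, hy, rfl⟩ hne c hc
  obtain ⟨hlt, hi, hj, hv⟩ := hR.commTerms_vec _ (hpos x hx).1 _ (hpos y hy).1 hne
    (hR.posSet_closed.ne_neg hR (hpos x hx) (hpos y hy)) c hc
  have hq := hR.act_lin w.reverse (hpos x hx).1 (hpos y hy).1 hlt hv
  rw [hR.act_reverse_act w hx.1.1, hR.act_reverse_act w hy.1.1] at hq
  have hql := hR.act_lt w.reverse hlt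
  refine ⟨act D w.reverse c.1, ⟨(hR.isPosRoot_iff _ hql).2 fun i => ?_, ?_⟩,
    hR.act_act_reverse w hlt⟩
  · have a1 := (hR.isPosRoot_iff _ hx.1.1).1 hx.1 i
    have a2 := (hR.isPosRoot_iff _ hy.1.1).1 hy.1 i
    rw [hq]
    simp only [Pi.add_apply, Pi.smul_apply, smul_eq_mul]
    positivity
  · rw [hR.inRootSub_iff _ hql, hq, map_add, map_zsmul, map_zsmul,
      (hR.inRootSub_iff _ hx.1.1).1 hx.2, (hR.inRootSub_iff _ hy.1.1).1 hy.2]
    simp

theorem rich_of_orbitRich (W : TwGroup O) (hS : Rules D F) (hR : RootTable D len) {ks0 : List ι}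
    (h0 : IsLongest O ks0) (h : OrbitRich Λ O) : Rich Λ W := by
  intro r hr
  obtain ⟨ks, J, s₀, hs₀, e⟩ := exists_orbit_image (O := O) hR ks0
    (r := r) (by rw [h0.invSet_eq hR]; exact hr)
  obtain ⟨hpN, hpc, hpT⟩ := W.prod_nJ hS hR ks
  set w := O.word ks
  set p := (ks.map (W.nJ hS hR)).prod
  have hwc : T.Comm w := O.comm_word hR ks
  have hpos : ∀ x ∈ O.posJ J, D.IsPosRoot (act D w x) := fun x hx => by
    refine pos_of_support hR _ w (fun i hi => ?_) hx.1 hx.2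
    by_contra hn
    have h1 := O.orbit_neg hR hwc hi (hR.neg_of_not_pos (hR.act_lt w (hR.simple_lt i i.2)) hn) hs₀
    exact hR.not_pos_and_neg hr (e ▸ h1.2)
  obtain ⟨s, hs, k, hk, L, t, hL, hts, hfix, hlev⟩ := h J s₀ hs₀
  have hLlt : ∀ x ∈ L, x < D.nroots := fun x hx => ((hL.2 x).1 hx).1.1
  -- the moved cocharacter is proportional on the orbit
  obtain ⟨k', hk'⟩ := hR.exists_moveR w Λ.l₀
  have hk'I : Λ.Inv k' := Λ.inv_move hR hwc Λ.inv_l₀ hk'
  obtain ⟨i₀, hi₀⟩ := O.nonempty J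
  set μ := pairR D len k' (D.simple i₀) / pairR D len Λ.l₀ (D.simple i₀)
  have hμ : 0 < μ := by
    refine div_pos ?_ (Λ.l₀_pos i₀)
    rw [hk' _ (hR.simple_lt i₀ i₀.2)]
    exact Λ.l₀_pos' hR (hpos _ (O.simple_mem hR hi₀))
  have hnode : ∀ j : Fin D.rank, (j : ℕ) ∈ O.nodes J → k' j = μ * Λ.l₀ j := by
    intro j hj
    obtain ⟨m, hm⟩ := O.trans J i₀ j hi₀ hj
    obtain ⟨-, f, -, hf⟩ := pair_iterate Λ m (hR.simple_lt i₀ i₀.2)
    rw [ν_iterate_simple, hm] at hf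
    have e1 : pairR D len k' (D.simple j) = μ * pairR D len Λ.l₀ (D.simple j) := by
      rw [hf _ hk'I, hf _ Λ.inv_l₀]
      have hne := (Λ.l₀_pos i₀).ne'
      simp only [μ]
      field_simp
    rw [hR.pairR_simple, hR.pairR_simple] at e1
    have hl := hR.one_le_len j
    exact mul_left_cancel₀ (a := (len (D.simple j) : ℝ)) (by linarith) (by linarith)
  have hprop : ∀ x ∈ O.posJ J, pairR D len Λ.l₀ (act D w x) = μ * pairR D len Λ.l₀ x := by
    intro x hx
    rw [← hk' _ hx.1.1]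
    simp only [pairR, Finset.mul_sum]
    refine Finset.sum_congr rfl fun j _ => ?_
    by_cases hj : (j : ℕ) ∈ O.nodes J
    · rw [hnode j hj]; ring
    · have : vec D len x j = 0 := by simp [vec, hx.2.2 j j.2 hj, -Array.getD_eq_getD_getElem?]
      simp [this]
  set y := p * S.P L t * p⁻¹
  have hPmem : S.P L t ∈ fixUS T (O.posJ J) := ⟨S.P_mem' (O.posJ_closed hR J) hL t, hfix⟩
  have hs' : D.IsPosRoot (act D w s) := hpos s hs
  refine ⟨act D w s, k, hs', ?_, y, W.conj_pos_mem hS hR h0 hpT hpc O.posJ_lt hpos hPmem, ?_, fun hy => ?_⟩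
  · rw [← (comm_iterate hwc k hs.1.1).2, hk, e]
  · have h1 : S.P L t ∈ S.US {x | x ∈ O.posJ J ∧ pairR D len Λ.l₀ s ≤ pairR D len Λ.l₀ x} :=
      S.P_mem hLlt fun x hx hne => ⟨(hL.2 x).1 hx, hlev x hx hne⟩
    refine S.US_mono ?_ (conjP_mem_US hpc (fun x hx => hx.1.1.1) h1)
    rintro _ ⟨x, ⟨hx, hle⟩, rfl⟩
    refine ⟨hR.act_lt w hx.1.1, ?_⟩
    rw [hprop x hx, hprop s hs]
    exact mul_le_mul_of_nonneg_left hle hμ.le
  · have hA := image_closed hR J hpos
    have hy1 : y ∈ S.US (act D w '' O.posJ J) := conjP_mem_US hpc O.posJ_lt hPmem.1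
    have hy2 : y ∈ S.US (act D w '' O.posJ J) ⊓ S.US (above Λ (act D w s)) := Subgroup.mem_inf.2 ⟨hy1, hy⟩
    rw [S.US_inf hR hR.posSet_closed hA (above_closed Λ hR hs') (Set.image_subset_iff.2 hpos)
      (above_pos Λ hR hs')] at hy2
    have hB : UClosed D len (htHom D) (O.posJ J ∩ above Λ s) :=
      (O.posJ_closed hR J).inter_closed (above_closed Λ hR hs.1).closed
    have h2 : S.P L t ∈ S.US (O.posJ J ∩ above Λ s) := by
      have := conjP_mem_US (hpc.inv hR) (fun x hx => by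
        obtain ⟨z, hz, rfl⟩ := hx.1; exact hR.act_lt w hz.1.1) hy2
      rw [show p⁻¹ * y * p⁻¹⁻¹ = S.P L t by simp [y, mul_assoc]] at this
      refine S.US_mono ?_ this
      rintro _ ⟨_, ⟨⟨x, hx, rfl⟩, hab⟩, rfl⟩
      rw [hR.act_reverse_act w hx.1.1]
      refine ⟨hx, ⟨hx.1.1, ?_⟩, fun e => hab.2 (by rw [Set.mem_singleton_iff.1 e]; rfl)⟩
      have h3 := hab.1.2
      rw [hprop x hx, hprop s hs] at h3
      exact le_of_mul_le_mul_left h3 hμ
    exact (S.coef_supp hR (O.posJ_closed hR J) hL hB Set.inter_subset_left h2 s hs hts).2.2 rfl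

theorem zeroNodes_iff (hR : RootTable D len) {l : Fin D.rank → ℝ}
    (hd : ∀ i : Fin D.rank, 0 ≤ pairR D len l (D.simple i)) {r : ℕ} (hr : D.IsPosRoot r) :
    D.InRootSub (zeroNodes D len l) r ↔ pairR D len l r = 0 := by
  refine ⟨hR.inRootSub_pairR, fun h => ⟨hr.1, fun i hi hout => ?_⟩⟩
  have hv := (hR.isPosRoot_iff r hr.1).1 hr
  have hl : ∀ j, 0 ≤ l j := fun j => by
    have := hd j
    rw [hR.pairR_simple] at this
    exact nonneg_of_mul_nonneg_right this (by have := hR.one_le_len j; linarith)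
  have h1 := (Finset.sum_eq_zero_iff_of_nonneg fun j _ => mul_nonneg (by exact_mod_cast hv j) (hl j)).1 h
    ⟨i, hi⟩ (Finset.mem_univ _)
  have hl0 : l ⟨i, hi⟩ ≠ 0 := fun e => hout ⟨⟨i, hi⟩, rfl, by rw [hR.pairR_simple, e, mul_zero]⟩
  rcases mul_eq_zero.1 h1 with h2 | h2
  · have h3 : vec D len r ⟨i, hi⟩ = 0 := by exact_mod_cast h2
    simpa [vec, (hR.len_pos hr.1).ne', -Array.getD_eq_getD_getElem?] using h3
  · exact absurd h2 hl0

theorem radRoots_iff (hR : RootTable D len) {l : Fin D.rank → ℝ}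
    (hd : ∀ i : Fin D.rank, 0 ≤ pairR D len l (D.simple i)) {r : ℕ} :
    r ∈ degPos D len (outJ D (zeroNodes D len l)) ↔ D.IsPosRoot r ∧ 0 < pairR D len l r := by
  rw [hR.degPos_outJ_eq]
  refine ⟨fun h => ⟨h.1, lt_of_le_of_ne (hR.pairR_nonneg hd h.1) fun e =>
    h.2 ((zeroNodes_iff hR hd h.1).2 e.symm)⟩, fun h => ⟨h.1, fun hin => ?_⟩⟩
  rw [(zeroNodes_iff hR hd h.1).1 hin] at h
  exact lt_irrefl _ h.2

theorem radRoots_ρ (hR : RootTable D len) {l : Fin D.rank → ℝ} (hI : Λ.Inv l)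
    (hd : ∀ i : Fin D.rank, 0 ≤ pairR D len l (D.simple i)) {r : ℕ}
    (hr : r ∈ degPos D len (outJ D (zeroNodes D len l))) :
    T.ρ r ∈ degPos D len (outJ D (zeroNodes D len l)) := by
  rw [radRoots_iff hR hd] at hr ⊢
  exact ⟨T.ρ_pos r hr.1, by rw [hI r hr.1.1]; exact mul_pos (Λ.κ_pos r hr.1.1) hr.2⟩

/-- A cocharacter vanishing on the roots of a proper radical vanishes. -/
theorem eq_zero_of_radRoots (hR : RootTable D len) (J : Set ℕ) (hJ : ∃ i < D.rank, i ∉ J)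
    {d : Fin D.rank → ℝ} (h : ∀ r ∈ degPos D len (outJ D J), pairR D len d r = 0) : d = 0 := by
  classical
  set A := degPos D len (outJ D J) with hA
  have hout : ∀ i : Fin D.rank, (i : ℕ) ∈ J → ∀ r ∈ A, D.reflectRoot i r ∈ A := fun i hi r hr => by
    refine ⟨hR.reflect_lt i i.2 r hr.1, ?_⟩
    rw [hR.vec_reflect i i.2 r hr.1, map_sub, map_zsmul, (hR.outJ_simple J i).1 hi, smul_zero, sub_zero]
    exact hr.2
  have hsimple : ∀ i : Fin D.rank, (i : ℕ) ∉ J → D.simple i ∈ A := fun i hi =>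
    ⟨hR.simple_lt i i.2, (hR.outJ_simple J i).2 hi⟩
  have hex : ∀ i : Fin D.rank, (i : ℕ) ∈ J → ∃ r ∈ A, D.cartan i r ≠ 0 := by
    by_contra! hbad
    obtain ⟨i₀, hi₀, hzero⟩ := hbad
    set I := Finset.univ.filter fun i : Fin D.rank => (i : ℕ) ∈ J ∧ ∀ r ∈ A, D.cartan i r = 0
    obtain ⟨j₀, hj₀, hjJ⟩ := hJ
    have hne : I ≠ Finset.univ := fun e => by
      have := (Finset.mem_filter.1 (e ▸ Finset.mem_univ (⟨j₀, hj₀⟩ : Fin D.rank) : _ ∈ I)).2.1
      exact hjJ this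
    obtain ⟨a, ha, c, hc, hac⟩ :=
      hR.connected I ⟨i₀, Finset.mem_filter.2 ⟨Finset.mem_univ _, hi₀, hzero⟩⟩ hne
    obtain ⟨-, haJ, ha0⟩ := Finset.mem_filter.1 ha
    by_cases hcJ : (c : ℕ) ∈ J
    · simp only [I, Finset.mem_filter, Finset.mem_univ, true_and, hcJ] at hc
      push Not at hc
      obtain ⟨r, hr, hr0⟩ := hc
      have h1 := ha0 _ (hout c hcJ r hr)
      rw [hR.cartan_reflect a.2 c.2 hr.1, ha0 r hr, zero_sub, neg_eq_zero] at h1
      exact (mul_eq_zero.1 h1).elim hr0 hac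
    · exact hac (ha0 _ (hsimple c hcJ))
  refine hR.eq_zero_of_pairR fun i => ?_
  by_cases hi : (i : ℕ) ∈ J
  · obtain ⟨r, hr, hc⟩ := hex i hi
    have h1 := h _ (hout i hi r hr)
    rw [hR.pairR_reflect d i hr.1, h r hr, zero_sub, neg_eq_zero] at h1
    exact (mul_eq_zero.1 h1).resolve_left (by exact_mod_cast hc)
  · exact h _ (hsimple i hi)

theorem x_commute_all {r : ℕ} (hr : r < D.nroots) {h : G}
    {a : ℕ → F} (ha : ∀ s < D.nroots, ∀ t : F, h * S.x s t * h⁻¹ = S.x s (a s * t))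
    (h1 : a r = 1) (t : F) : h * S.x r t = S.x r t * h := by
  have := ha r hr t
  rwa [h1, one_mul, mul_inv_eq_iff_eq_mul] at this

variable (W : TwGroup O)

/-- The fixed part of the unipotent group of a radical. -/
theorem exists_radical_element (hS : Rules D F) (hR : RootTable D len) {ks0 : List ι}
    (h0 : IsLongest O ks0) {l : Fin D.rank → ℝ} (hI : Λ.Inv l)
    (hd : ∀ i : Fin D.rank, 0 ≤ pairR D len l (D.simple i)) {s : ℕ}
    (hs : s ∈ degPos D len (outJ D (zeroNodes D len l))) {y : G} (hy : y ∈ S.Ubar ⊓ W.Tw)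
    (hyL : y ∈ S.US (levelR D len Λ.l₀ (pairR D len Λ.l₀ s))) (hyA : y ∉ S.US (above Λ s)) :
    ∃ a ∈ S.UJ (zeroNodes D len l) ⊓ W.Tw,
      a ∈ S.US (levelR D len Λ.l₀ (pairR D len Λ.l₀ s) ∩ degPos D len (outJ D (zeroNodes D len l))) ∧
        a ∉ S.US (above Λ s) := by
  set J := zeroNodes D len l
  set c := pairR D len Λ.l₀ s
  set A := degPos D len (outJ D J) with hA
  set L := levelR D len Λ.l₀ c
  have hsp : D.IsPosRoot s := hR.pos_of_degPos J hs
  have hd0 : ∀ i : Fin D.rank, 0 ≤ pairR D len Λ.l₀ (D.simple i) := fun i => (Λ.l₀_pos i).le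
  have hc : 0 < c := Λ.l₀_pos' hR hsp
  have hLc := hR.levelR_closed hd0 hc
  have hLp := hR.levelR_pos hd0 hc
  set B := {r | D.InRootSub J r}
  have h1 : UClosed D len (htHom D) (L ∩ A) :=
    hLc.inter_closed fun r hr s hs hne c hc => (hR.degPos_closed _).closed r hr s hs hne c hc
  have h2 : UClosed D len (htHom D) (L ∩ B) := by
    refine hLc.subset_closed Set.inter_subset_left fun r hr x hx hne c hc => ?_
    refine ⟨hLc.closed r hr.1 x hx.1 hne c hc, ?_⟩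
    obtain ⟨hlt, -, -, hv⟩ := hR.commTerms_vec r hr.1.1 x hx.1.1 hne
      (hR.posSet_closed.ne_neg hR (hLp hr.1) (hLp hx.1)) c hc
    show D.InRootSub J c.1
    rw [hR.inRootSub_iff _ hlt, hv, map_add, map_zsmul, map_zsmul,
      (hR.inRootSub_iff _ hr.1.1).1 hr.2, (hR.inRootSub_iff _ hx.1.1).1 hx.2]
    simp
  obtain ⟨a, ha, b, hb, rfl⟩ := S.US_eq_mul hR hLc h1 h2 (Set.ext fun r => ⟨fun hr =>
      hr.elim (fun hr => hr.1) (fun hr => hr.1), fun hr => by
        by_cases hJ : D.InRootSub J r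
        · exact Or.inr ⟨hr, hJ⟩
        · refine Or.inl ⟨hr, ?_⟩
          rw [hA, hR.degPos_outJ_eq]
          exact ⟨hLp hr, hJ⟩⟩)
    (Set.disjoint_left.2 fun r hr hr' => by
      have := hr.2
      rw [hA, hR.degPos_outJ_eq] at this
      exact this.2 hr'.2) hyL
  have hAU : S.US (L ∩ A) ≤ S.UJ J := S.US_mono fun r hr => by
    have := hr.2
    rwa [hA, hR.degPos_outJ_eq] at this
  have haU : a ∈ S.Ubar := S.US_mono (fun r hr => hLp hr.1) ha
  have hbG : b ∈ S.Gbar := Twist.US_le_Gbar (fun r hr => hr.1.1) hb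
  have haG : a ∈ S.Gbar := Twist.US_le_Gbar (fun r hr => hr.1.1) ha
  have hfix := W.fixed (Subgroup.mem_inf.1 hy).2
  rw [T.sig_mul a haG b hbG] at hfix
  have hσa : T.sig a ∈ S.US A := T.sig_US (fun r hr => hr.1.1) (fun r hr => radRoots_ρ Λ hR hI hd hr.2) ha
  have hσb : T.sig b ∈ S.US B := T.sig_US (fun r hr => hr.1.1) (fun r hr => by
    have hrp : D.IsPosRoot r := hLp hr.1
    show D.InRootSub J (T.ρ r)
    rw [zeroNodes_iff hR hd (T.ρ_pos r hrp), hI r hrp.1, (zeroNodes_iff hR hd hrp).1 hr.2, mul_zero]) hb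
  have hAJ : S.US A ≤ S.UJ J := S.US_mono fun r hr => by
    rwa [hA, hR.degPos_outJ_eq] at hr
  have hBL : S.US B ≤ S.LJ J := le_sup_right
  have ea : T.sig a = a := by
    have h3 : a⁻¹ * T.sig a = b * (T.sig b)⁻¹ := by
      rw [eq_mul_inv_iff_mul_eq, mul_assoc, hfix, inv_mul_cancel_left]
    have h4 : a⁻¹ * T.sig a ∈ S.UJ J ⊓ S.LJ J := Subgroup.mem_inf.2
      ⟨mul_mem (inv_mem (hAU ha)) (hAJ hσa),
        h3 ▸ mul_mem (hBL (S.US_mono Set.inter_subset_right hb)) (inv_mem (hBL hσb))⟩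
    rw [S.UJ_inf_LJ hS hR, Subgroup.mem_bot, inv_mul_eq_one] at h4
    exact h4.symm
  refine ⟨a, Subgroup.mem_inf.2 ⟨hAU ha,
    (Subgroup.mem_inf.1 ((W.fixUbar_eq hS hR (O.comm_word hR ks0) (h0.invSet_eq hR)).2 ⟨haU, ea⟩)).2⟩,
    ha, fun haA => hyA (mul_mem haA (S.US_mono ?_ hb))⟩
  intro r hr
  refine ⟨hr.1, fun e => ?_⟩
  have h5 := hs
  rw [hA, hR.degPos_outJ_eq] at h5
  exact h5.2 (Set.mem_singleton_iff.1 e ▸ hr.2)

/-- An element of the parabolic centralising the fixed part of the radical lies in the Borel subgroup. -/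
theorem mem_Bbar_of_centralizes (hS : Rules D F) (hR : RootTable D len) {ks0 : List ι}
    (h0 : IsLongest O ks0) (hrich : Rich Λ W) {l : Fin D.rank → ℝ} (hI : Λ.Inv l)
    (hd : ∀ i : Fin D.rank, 0 ≤ pairR D len l (D.simple i))
    (hJ : ∃ i, i < D.rank ∧ i ∉ zeroNodes D len l) {z : G} (hzT : z ∈ W.Tw)
    (hzP : z ∈ S.PJ (zeroNodes D len l))
    (hc : ∀ a ∈ S.UJ (zeroNodes D len l) ⊓ W.Tw, z * a = a * z) : z ∈ S.Bbar := by
  classical
  set J := zeroNodes D len l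
  set A := degPos D len (outJ D J) with hA
  obtain ⟨b, hb, w, k, hk, hwc, -, v, hv, e⟩ := tw_bruhat W hS hR hzT
  have hbk : b * k ∈ S.Bbar := mul_mem (Subgroup.mem_inf.1 hb).1 (S.Hbar_le_Bbar hk)
  have hvB : v ∈ S.Bbar := S.Ubar_le_Bbar hv
  have hW : S.nW w ∈ Subgroup.normalizer (S.UJ J : Set G) := by
    refine S.PJ_le_normalizer hS hR J ?_
    have e' : S.nW w = (b * k)⁻¹ * z * v⁻¹ := by rw [e]; group
    rw [e']
    exact mul_mem (mul_mem (inv_mem (Subgroup.mem_sup_left hbk)) hzP) (inv_mem (Subgroup.mem_sup_left hvB))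
  rw [Sys.UJ, ← hR.degPos_outJ_eq J] at hW
  have hAp : ∀ r ∈ A, D.IsPosRoot r := fun r hr => hR.pos_of_degPos J hr
  have hAc : UClosed D len (htHom D) A :=
    hR.posSet_closed.subset_closed hAp (hR.degPos_closed _).closed
  have hmaps : Set.MapsTo (act D w) A A := fun r hr => by
    obtain ⟨a, ha, hwa⟩ := S.conjP_nW hS hR w
    have h1 := (Subgroup.mem_normalizer_iff.1 hW (S.x r 1)).1 (S.x_mem_US hr 1)
    rw [hwa r hr.1, mul_one] at h1
    exact S.root_mem_of_mem_US hR hAc hAp (hR.act_lt w hr.1)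
      (right_ne_zero_of_mul_eq_one (ha r hr.1)) hS h1
  have hfin := hAc.finite
  have hinj : Set.InjOn (act D w) A := fun r hr s hs e => hR.act_inj w hr.1 hs.1 e
  have hbij : Set.BijOn (act D w) A A := (hfin.injOn_iff_bijOn_of_mapsTo hmaps).1 hinj
  have hmaps' : ∀ r ∈ A, act D w.reverse r ∈ A := fun r hr => by
    obtain ⟨q, hq, rfl⟩ := hbij.surjOn hr
    rwa [hR.act_reverse_act w hq.1]
  -- the moved cocharacter is not smaller on the radical
  obtain ⟨k', hk'⟩ := hR.exists_moveR w.reverse Λ.l₀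
  have hk'I : Λ.Inv k' := Λ.inv_move hR (hwc.reverse hR) Λ.inv_l₀ hk'
  have hk'w : ∀ r < D.nroots, pairR D len Λ.l₀ r = pairR D len k' (act D w r) := fun r hr => by
    rw [hk' _ (hR.act_lt w hr), hR.act_reverse_act w hr]
  have hd0 : ∀ i : Fin D.rank, 0 ≤ pairR D len Λ.l₀ (D.simple i) := fun i => (Λ.l₀_pos i).le
  have hge : ∀ r ∈ A, pairR D len Λ.l₀ r ≤ pairR D len k' r := by
    intro r hr
    obtain ⟨s, n, hsp, rfl, y, hy, hyL, hyA⟩ := hrich r (hAp r hr)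
    obtain ⟨-, f, hf, hpair⟩ := pair_iterate Λ n hsp.1
    have hs : s ∈ A := by
      rw [hA, radRoots_iff hR hd] at hr ⊢
      refine ⟨hsp, ?_⟩
      have h1 := hr.2
      rw [hpair l hI] at h1
      exact pos_of_mul_pos_right h1 hf.le
    rw [hpair _ Λ.inv_l₀, hpair _ hk'I]
    refine mul_le_mul_of_nonneg_left ?_ hf.le
    set c := pairR D len Λ.l₀ s
    have hc0 : 0 < c := Λ.l₀_pos' hR hsp
    obtain ⟨a, ha, haL, haA⟩ := exists_radical_element Λ W hS hR h0 hI hd hs hy hyL hyA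
    have haL' : a ∈ S.US (levelR D len Λ.l₀ c) := S.US_mono Set.inter_subset_left haL
    have hNb := S.levelR_le_normalizer hS hR hd0 hc0
    have h1 : v * a * v⁻¹ ∈ S.US (levelR D len Λ.l₀ c) :=
      (Subgroup.mem_normalizer_iff.1 (hNb hvB) a).1 haL'
    have h2 : S.nW w * (v * a * v⁻¹) * (S.nW w)⁻¹ = (b * k)⁻¹ * a * (b * k) := by
      have := hc a ha
      rw [e] at this
      calc S.nW w * (v * a * v⁻¹) * (S.nW w)⁻¹
          = (b * k)⁻¹ * (b * k * S.nW w * v * a) * v⁻¹ * (S.nW w)⁻¹ := by group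
        _ = (b * k)⁻¹ * (a * (b * k * S.nW w * v)) * v⁻¹ * (S.nW w)⁻¹ := by rw [this]
        _ = _ := by group
    have h3 : (b * k)⁻¹ * a * (b * k) ∈ S.US (levelR D len Λ.l₀ c) := by
      have := (Subgroup.mem_normalizer_iff.1 (hNb (inv_mem hbk)) a).1 haL'
      simpa using this
    have h4 := S.levelR_inter hS hR hd0 hd0 hc0 w hk'w h1 (by rw [h2]; exact h3)
    rw [h2] at h4
    by_contra hlt
    have h5 : (b * k)⁻¹ * a * (b * k) ∈ S.US (above Λ s) := by
      refine S.US_mono ?_ h4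
      intro x hx
      exact ⟨hx.1, fun ex => hlt (by rw [← Set.mem_singleton_iff.1 ex]; exact hx.2.2)⟩
    refine haA ?_
    have := (Subgroup.mem_normalizer_iff.1 (Bbar_le_normalizer_above Λ hS hR hsp hbk) _).1 h5
    simpa [mul_assoc] using this
  set s := hfin.toFinset
  have hsum : ∑ q ∈ s, pairR D len k' q = ∑ q ∈ s, pairR D len Λ.l₀ q := by
    refine (Finset.sum_bij (fun q _ => act D w q) (fun q hq => ?_) (fun p hp q hq e => ?_)
      (fun q hq => ?_) (fun q hq => ?_)).symm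
    · exact hfin.mem_toFinset.2 (hmaps (hfin.mem_toFinset.1 hq))
    · exact hinj (hfin.mem_toFinset.1 hp) (hfin.mem_toFinset.1 hq) e
    · obtain ⟨p, hp, hpe⟩ := hbij.surjOn (hfin.mem_toFinset.1 hq)
      exact ⟨p, hfin.mem_toFinset.2 hp, hpe⟩
    · exact hk'w q (hfin.mem_toFinset.1 hq).1
  have heq := (Finset.sum_eq_sum_iff_of_le fun q hq => hge q (hfin.mem_toFinset.1 hq)).1 hsum.symm
  have hzero : Λ.l₀ - k' = 0 := eq_zero_of_radRoots hR J hJ fun r hr => by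
    rw [RootTable.pairR_sub, heq r (hfin.mem_toFinset.2 hr), sub_self]
  have hl : k' = Λ.l₀ := (sub_eq_zero.1 hzero).symm
  have hall : ∀ r, D.IsPosRoot r → D.IsPosRoot (act D w r) := fun r hr => by
    by_contra hn
    have h1 := hR.neg_of_not_pos (hR.act_lt w hr.1) hn
    have h2 := Λ.l₀_pos' hR ((hR.pos_neg_iff (hR.act_lt w hr.1)).2 h1)
    rw [hR.pairR_neg_root _ (hR.act_lt w hr.1), ← hl, ← hk'w r hr.1] at h2
    linarith [Λ.l₀_pos' hR hr]
  have hH : S.nW w ∈ S.Hbar := S.nW_mem_Hbar_of_act hS hR hall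
  rw [e]
  exact mul_mem (mul_mem hbk (S.Hbar_le_Bbar hH)) hvB

/-- A torus element centralising the fixed part of a radical centralises the radical. -/
theorem centralizes_UJ (hS : Rules D F) (hR : RootTable D len) {ks0 : List ι} (h0 : IsLongest O ks0)
    (hrich : Rich Λ W) {l : Fin D.rank → ℝ} (hI : Λ.Inv l)
    (hd : ∀ i : Fin D.rank, 0 ≤ pairR D len l (D.simple i)) {h : G} (hh : h ∈ S.Hbar) (hhT : h ∈ W.Tw)
    (hc : ∀ a ∈ S.UJ (zeroNodes D len l) ⊓ W.Tw, h * a = a * h) :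
    h ∈ Subgroup.centralizer (S.UJ (zeroNodes D len l) : Set G) := by
  set J := zeroNodes D len l
  set A := degPos D len (outJ D J) with hA
  obtain ⟨χ, -, hχ, -⟩ := hbar_char hS hR hh
  have hstep : ∀ r < D.nroots, χ r = 1 → χ (T.ρ r) = 1 := by
    intro r hr h1
    have hG := W.Tw_le hhT
    have e := congrArg T.sig (hχ r hr 1)
    rw [h1, one_mul, sig_conj hG (S.x_mem_Gbar hr _) (W.fixed hhT), T.sig_x r hr,
      hχ _ (T.ρ_lt r hr)] at e
    exact (mul_eq_right₀ (T.f_ne r hr 1 one_ne_zero)).1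
      (ChevBlocks.x_param_inj S hS hR (T.ρ_lt r hr) e)
  have hone : ∀ r ∈ A, χ r = 1 := by
    intro r hr
    obtain ⟨s, n, hsp, rfl, y, hy, hyL, hyA⟩ := hrich r (hR.pos_of_degPos J hr)
    obtain ⟨-, f, hf, hpair⟩ := pair_iterate Λ n hsp.1
    have hs : s ∈ A := by
      rw [hA, radRoots_iff hR hd] at hr ⊢
      refine ⟨hsp, ?_⟩
      have h1 := hr.2
      rw [hpair l hI] at h1
      exact pos_of_mul_pos_right h1 hf.le
    obtain ⟨a, ha, haL, haA⟩ := exists_radical_element Λ W hS hR h0 hI hd hs hy hyL hyA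
    have hL : UClosed D len (htHom D) (levelR D len Λ.l₀ (pairR D len Λ.l₀ s) ∩ A) :=
      (hR.levelR_closed (fun i => (Λ.l₀_pos i).le) (Λ.l₀_pos' hR hsp)).inter_closed
        (hR.degPos_closed _).closed
    obtain ⟨Ls, hLs⟩ := hL.exists_enum
    have hlt : ∀ x ∈ Ls, x < D.nroots := fun x hx => hL.lt x ((hLs.2 x).1 hx)
    obtain ⟨t, rfl⟩ := S.exists_coef hR hL hLs haL
    have hts : t s ≠ 0 := fun h0 => haA (S.P_mem hlt fun x hx hne =>
      ⟨((hLs.2 x).1 hx).1, fun ex => hne (by rw [Set.mem_singleton_iff.1 ex, h0])⟩)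
    have hs1 : χ s = 1 := by
      have e1 : h * S.P Ls t * h⁻¹ = S.P Ls (fun x => χ x * t x) := by
        clear haL haA ha hts hLs
        induction Ls with
        | nil => simp [Sys.P_nil]
        | cons x L ih =>
          rw [Sys.P_cons, Sys.P_cons, ← ih fun z hz => hlt z (List.mem_cons_of_mem _ hz),
            ← hχ x (hlt x List.mem_cons_self) (t x)]
          simp [mul_assoc]
      rw [hc _ ha, mul_inv_cancel_right] at e1
      exact (mul_eq_right₀ hts).1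
        (S.coef_unique hR hL hLs (congrArg S.θ e1.symm) s ⟨⟨hsp.1, le_rfl⟩, hs⟩)
    clear hr hpair hyL hyA
    induction n with
    | zero => exact hs1
    | succ n ih =>
      rw [Function.iterate_succ_apply']
      exact hstep _ (pair_iterate Λ n hsp.1).1 ih
  rw [Sys.UJ, ← hR.degPos_outJ_eq J, Sys.US]
  rw [Subgroup.centralizer_closure, Subgroup.mem_centralizer_iff]
  rintro _ ⟨r, hr, t, rfl⟩
  exact (x_commute_all hr.1 hχ (hone r hr) t).symm

end General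

section Main

open Cfsg.Agent.SLBlocks

variable {D : ChevalleyDatum} {F : Type*} [Field F] [Finite F] {len : ℕ → ℕ} {hS : Rules D F}
  {T : Twist (glSys hS)} {ι : Type*} [Fintype ι] [DecidableEq ι] {O : Orbits T ι}

theorem not_dvd_orderOf_torus (hR : RootTable D len) (p : ℕ) [Fact p.Prime] [CharP F p]
    {h : GL D.Idx F} (hh : h ∈ (glSys hS).Hbar) : ¬ p ∣ orderOf h := by
  have := Fintype.ofFinite F
  intro hd
  refine SLBlocks.not_dvd_card_sub_one (F := F) (p := p) (hd.trans ?_)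
  rw [← Nat.card_eq_fintype_card]
  exact orderOf_dvd_of_pow_eq_one (ChevGrp.pow_eq_one_of_mem_Hbar hS hR hh)

/-- A `p`-subgroup of the twisted group is conjugate in it into the unipotent group. -/
theorem exists_conj_le_Ubar (W : TwGroup O) (hR : RootTable D len) {ks0 : List ι}
    (h0 : IsLongest O ks0) (p : ℕ) [Fact p.Prime] [CharP F p] {R : Subgroup ↥W.Tw}
    (hR' : IsPGroup p R) :
    ∃ g : ↥W.Tw, ∀ x ∈ R, ((g⁻¹ * x * g : ↥W.Tw) : GL D.Idx F) ∈ (glSys hS).Ubar := by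
  classical
  obtain ⟨P, hPB, hPN, -⟩ := W.exists_BNPair_gens hS hR h0
  have hc0 : T.Comm (O.word ks0) := O.comm_word hR ks0
  have memB : ∀ g : ↥W.Tw, g ∈ P.B ↔ (g : GL D.Idx F) ∈ (glSys hS).Bbar := fun g => by
    rw [hPB, Subgroup.mem_subgroupOf, Subgroup.mem_inf, and_iff_left g.2]
  have memN : ∀ g : ↥W.Tw, g ∈ P.N ↔ (g : GL D.Idx F) ∈ (glSys hS).Nbar := fun g => by
    rw [hPN, Subgroup.mem_subgroupOf, Subgroup.mem_inf, and_iff_left g.2]
  set U := (glSys hS).Ubar.subgroupOf W.Tw with hU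
  have hsplit : Opp34.SplitB P U := by
    refine ⟨fun x hx => (memB x).2 ((glSys hS).Ubar_le_Bbar hx), fun b hb u hu => ?_, fun b hb => ?_⟩
    · obtain ⟨u', hu', h, hh, e⟩ := ((glSys hS).mem_Bbar hS hR).1 ((memB b).1 hb)
      rw [hU, Subgroup.mem_subgroupOf] at hu ⊢
      push_cast
      rw [e]
      have := mul_mem (mul_mem hu' ((Subgroup.mem_normalizer_iff.1
        ((glSys hS).Hbar_le_normalizer_Ubar hS hR hh) _).1 hu)) (inv_mem hu')
      convert this using 1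
      group
    · obtain ⟨u, hu, h, hh, e⟩ := W.B_decomp hS hR hc0 (h0.invSet_eq hR) ((memB b).1 hb) b.2
      refine ⟨⟨u, hu.2⟩, hu.1, ⟨h, hh.2⟩,
        ⟨(memB _).2 ((glSys hS).Hbar_le_Bbar hh.1), (memN _).2 ((glSys hS).Hbar_le_Nbar hh.1)⟩,
          Subtype.ext ?_⟩
      simpa using e
  have hH : Nat.Coprime (Nat.card ↥((glSys hS).Hbar ⊓ W.Tw)) p := by
    refine ((Fact.out : p.Prime).coprime_iff_not_dvd.2 fun hd => ?_).symm
    obtain ⟨x, hx⟩ := exists_prime_orderOf_dvd_card' p hd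
    refine not_dvd_orderOf_torus hR p (Subgroup.mem_inf.1 x.2).1 ?_
    rw [Subgroup.orderOf_coe, hx]
  have hUp : IsPGroup p ↥U :=
    (isPGroup_Ubar hS hR p).comap_of_injective W.Tw.subtype Subtype.val_injective
  obtain ⟨Q, hQ⟩ := hUp.exists_le_sylow
  have hQU : (Q : Subgroup ↥W.Tw) ≤ U := by
    have : Group.IsNilpotent ↥(Q : Subgroup ↥W.Tw) := Q.isPGroup'.isNilpotent
    by_contra hne
    have hlt : U.subgroupOf (Q : Subgroup ↥W.Tw) < ⊤ := by
      refine lt_top_iff_ne_top.2 fun h => hne ?_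
      exact Subgroup.subgroupOf_eq_top.1 h
    have hn := Group.normalizerCondition_of_isNilpotent (G := ↥(Q : Subgroup ↥W.Tw)) _ hlt
    obtain ⟨x, hx, hxU⟩ := SetLike.exists_of_lt hn
    refine hxU ?_
    rw [Subgroup.mem_subgroupOf]
    have hxB : (x : ↥W.Tw) ∈ P.B := hsplit.mem_B_of_normalises fun u hu => by
      have := (Subgroup.mem_normalizer_iff.1 hx ⟨u, hQ hu⟩).1 hu
      simpa [Subgroup.mem_subgroupOf] using this
    obtain ⟨k, hk⟩ := Q.isPGroup' x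
    have hk' : ((x : ↥W.Tw) : GL D.Idx F) ^ p ^ k = 1 := by
      simpa using congrArg (fun z : ↥(Q : Subgroup ↥W.Tw) => ((z : ↥W.Tw) : GL D.Idx F)) hk
    exact (Subgroup.mem_inf.1 (ChevTwSec.pow_mem_U (W := W) (hR := hR) p h0 hH
      (Subgroup.mem_inf.2 ⟨(memB _).1 hxB, (x : ↥W.Tw).2⟩) hk')).1
  obtain ⟨Q', hQ'⟩ := hR'.exists_le_sylow
  obtain ⟨g, hg⟩ := MulAction.exists_smul_eq ↥W.Tw Q Q'
  refine ⟨g, fun x hx => Subgroup.mem_subgroupOf.1 (hQU ?_ : g⁻¹ * x * g ∈ U)⟩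
  have h1 : x ∈ ((g • Q : Sylow p ↥W.Tw) : Subgroup ↥W.Tw) := hg ▸ hQ' hx
  rw [Sylow.coe_subgroup_smul, Subgroup.mem_pointwise_smul_iff_inv_smul_mem] at h1
  simpa [MulAut.smul_def] using h1

/-- An element of order prime to `p` centralising a nontrivial radical `p`-subgroup is trivial. -/
theorem eq_one_of_centralizes_radical (W : TwGroup O) (hR : RootTable D len) {ks0 : List ι}
    (h0 : IsLongest O ks0) (Λ : LevData T len) (hrich : Rich Λ W) (hC : ChevBlocks.Cert D)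
    (p : ℕ) [Fact p.Prime] [CharP F p] {R : Subgroup ↥W.Tw} (hp : IsPGroup p R) (hne : R ≠ ⊥)
    (hrad : IsRadical p R) {z : ↥W.Tw} (hz : z ∈ Subgroup.centralizer (R : Set ↥W.Tw))
    (hord : ¬ p ∣ orderOf z) : z = 1 := by
  classical
  set S := glSys hS with hSd
  obtain ⟨g₀, hg₀⟩ := exists_conj_le_Ubar W hR h0 p hp
  set R' := R.map W.Tw.subtype
  have hne' : R' ≠ ⊥ := by
    rwa [ne_eq, Subgroup.map_eq_bot_iff_of_injective _ Subtype.val_injective]
  have hU : ∀ x ∈ R', ((g₀ : GL D.Idx F))⁻¹ * x * g₀ ∈ S.Ubar := by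
    rintro _ ⟨x, hx, rfl⟩
    simpa using hg₀ x hx
  obtain ⟨g, hg, l, hI, hd, hJ, hN, -⟩ := borel_tits_tw W hS hR Λ hne' g₀.2 hU
  set J := zeroNodes D len l
  set γ : ↥W.Tw := ⟨g, hg⟩
  set A := ((S.UJ J).subgroupOf W.Tw).map (MulAut.conj γ).toMonoidHom with hA
  have hmemA : ∀ {a : ↥W.Tw}, a ∈ A ↔ g⁻¹ * (a : GL D.Idx F) * g ∈ S.UJ J := by
    intro a
    rw [hA]
    constructor
    · rintro ⟨y, hy, rfl⟩
      rw [SetLike.mem_coe, Subgroup.mem_subgroupOf] at hy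
      simpa [γ, mul_assoc] using hy
    · intro hy
      refine ⟨γ⁻¹ * a * γ, ?_, by simp [mul_assoc]⟩
      rw [SetLike.mem_coe, Subgroup.mem_subgroupOf]
      simpa [γ] using hy
  have hUJU : S.UJ J ≤ S.Ubar := S.US_mono fun r hr => hr.1
  have hUp := isPGroup_Ubar hS hR p
  have hAp : IsPGroup p A :=
    ((hUp.to_le hUJU).comap_of_injective W.Tw.subtype Subtype.val_injective).map _
  have hR'N : ∀ n : ↥W.Tw, n ∈ Subgroup.normalizer (R : Set ↥W.Tw) →
      g⁻¹ * (n : GL D.Idx F) * g ∈ S.PJ J := fun n hn => by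
    refine hN _ ?_ n.2
    exact Subgroup.le_normalizer_map (H := R) W.Tw.subtype ⟨n, hn, rfl⟩
  have hAn : Subgroup.normalizer (R : Set ↥W.Tw) ≤ Subgroup.normalizer (A : Set ↥W.Tw) := by
    refine SLBlocks.le_normalizer_of_forall_conj fun n hn a ha => ?_
    rw [hmemA] at ha ⊢
    have h1 := (Subgroup.mem_normalizer_iff.1 (S.PJ_le_normalizer hS hR J (hR'N n hn)) _).1 ha
    simpa [mul_assoc] using h1
  have hAR : A ≤ R := SLBlocks.radical_absorbs hp hAp hAn hrad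
  set y := g⁻¹ * (z : GL D.Idx F) * g with hy
  have hyT : y ∈ W.Tw := mul_mem (mul_mem (inv_mem hg) z.2) hg
  have hyC : ∀ a ∈ S.UJ J ⊓ W.Tw, y * a = a * y := by
    intro a ha
    obtain ⟨ha1, ha2⟩ := Subgroup.mem_inf.1 ha
    have hm : γ * ⟨a, ha2⟩ * γ⁻¹ ∈ A := hmemA.2 (by simpa [γ, mul_assoc] using ha1)
    have h1 := congrArg (fun q : ↥W.Tw => (q : GL D.Idx F))
      (Subgroup.mem_centralizer_iff.1 hz _ (hAR hm))
    simp only [Subgroup.coe_mul, Subgroup.coe_inv, γ] at h1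
    calc y * a = g⁻¹ * ((z : GL D.Idx F) * (g * a * g⁻¹)) * g := by rw [hy]; group
      _ = g⁻¹ * (g * a * g⁻¹ * (z : GL D.Idx F)) * g := by rw [h1]
      _ = a * y := by rw [hy]; group
  have hyP : y ∈ S.PJ J := hR'N z (Subgroup.centralizer_le_normalizer _ hz)
  have hyB := mem_Bbar_of_centralizes Λ W hS hR h0 hrich hI hd hJ hyT hyP hyC
  obtain ⟨u, hu, h, hh, hy'⟩ := W.B_decomp hS hR (O.comm_word hR ks0) (h0.invSet_eq hR) hyB hyT
  obtain ⟨hhH, hhT⟩ := Subgroup.mem_inf.1 hh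
  have hhp := not_dvd_orderOf_torus hR p hhH
  set V := S.Ubar ⊓ W.Tw
  have hVp : IsPGroup p V := hUp.to_le inf_le_left
  have hcop : (orderOf h).Coprime (Nat.card V) := by
    obtain ⟨n, hn⟩ := IsPGroup.iff_card.1 hVp
    rw [hn]
    exact Nat.Coprime.pow_right _ ((Fact.out : p.Prime).coprime_iff_not_dvd.2 hhp).symm
  have hnV : h ∈ Subgroup.normalizer (V : Set (GL D.Idx F)) := by
    have h1 := S.Hbar_le_normalizer_Ubar hS hR hhH
    rw [Subgroup.mem_normalizer_iff] at h1 ⊢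
    intro x
    simp only [V, Subgroup.mem_inf, ← h1 x]
    refine and_congr_right fun _ => ⟨fun hx => mul_mem (mul_mem hhT hx) (inv_mem hhT), fun hx => ?_⟩
    have := mul_mem (mul_mem (inv_mem hhT) hx) hhT
    simpa [mul_assoc] using this
  obtain ⟨x, hx, c, hc, hct, he⟩ := OddChar.exists_conj_centralizer_coset V h hnV hcop u hu
  have hyo : orderOf y = orderOf z := by
    rw [hy, show g⁻¹ * (z : GL D.Idx F) * g = MulAut.conj g⁻¹ (z : GL D.Idx F) by simp,
      (MulAut.conj g⁻¹).orderOf_eq, Subgroup.orderOf_coe]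
  have hc1 : c = 1 := by
    by_contra hc1
    refine hord ?_
    obtain ⟨j, hj⟩ := IsPGroup.iff_orderOf.1 hVp ⟨c, hc⟩
    rw [Subgroup.orderOf_mk] at hj
    have hj0 : j ≠ 0 := fun h0 => hc1 (orderOf_eq_one_iff.1 (by rw [hj, h0, pow_zero]))
    rw [← hyo, hy', show orderOf (u * h) = orderOf (MulAut.conj x (u * h)) from
      ((MulAut.conj x).orderOf_eq _).symm, MulAut.conj_apply, he,
      (show Commute c h from hct).orderOf_mul_eq_mul_orderOf_of_coprime
        (hcop.symm.coprime_dvd_left (by rw [← Subgroup.orderOf_mk c hc]; exact orderOf_dvd_natCard _)),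
      hj]
    exact Dvd.dvd.mul_right (dvd_pow_self p hj0) _
  rw [hc1, one_mul, ← hy'] at he
  obtain ⟨hxU, hxT⟩ := Subgroup.mem_inf.1 hx
  have hhC : ∀ a ∈ S.UJ J ⊓ W.Tw, h * a = a * h := by
    intro a ha
    obtain ⟨ha1, ha2⟩ := Subgroup.mem_inf.1 ha
    have hxN := S.PJ_le_normalizer hS hR J (Subgroup.mem_sup_left (S.Ubar_le_Bbar (inv_mem hxU)))
    have hb : x⁻¹ * a * x ∈ S.UJ J ⊓ W.Tw := by
      refine Subgroup.mem_inf.2 ⟨?_, mul_mem (mul_mem (inv_mem hxT) ha2) hxT⟩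
      simpa using (Subgroup.mem_normalizer_iff.1 hxN a).1 ha1
    have h1 := hyC _ hb
    rw [← he]
    calc x * y * x⁻¹ * a = x * (y * (x⁻¹ * a * x)) * x⁻¹ := by group
      _ = x * (x⁻¹ * a * x * y) * x⁻¹ := by rw [h1]
      _ = a * (x * y * x⁻¹) := by group
  have h0' : h = 1 := ChevBlocks.Hbar_eq_one_of_centralizes S hS hR hC (fun a b e => e) J hJ hhH
    (centralizes_UJ Λ W hS hR h0 hrich hI hd hhH hhT hhC)
  rw [h0'] at he
  have hy1 : y = 1 := conj_eq_one_iff.1 he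
  refine Subtype.ext ?_
  have := congrArg (fun q => g * q * g⁻¹) hy1
  simpa [hy, mul_assoc] using this

theorem centralCentralizers_tw (W : TwGroup O) (hR : RootTable D len) {ks0 : List ι}
    (h0 : IsLongest O ks0) (Λ : LevData T len) (hrich : OrbitRich Λ O) (hC : ChevBlocks.Cert D)
    (p : ℕ) [Fact p.Prime] [CharP F p] : CentralCentralizers p ↥W.Tw :=
  fun _ hp hne hrad _ hz hord => by
    rw [eq_one_of_centralizes_radical W hR h0 Λ (rich_of_orbitRich Λ W hS hR h0 hrich) hC p hp hne hrad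
      hz hord]
    exact one_mem _

end Main

end Cfsg.Agent.LieBlocks29
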