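import Cfsg.Agent.LieBlocks29.TwCentral
import Cfsg.Agent.ChevBlocks.Certs
import Cfsg.Agent.Chev.Rules
import Cfsg.Agent.ChevTw.TwE6
import Cfsg.Agent.ChevTw.TwD4
import Cfsg.Agent.ChevTw.TwF4
import Cfsg.Agent.ChevTw.TwG2

/-!
Regular cocharacters scaled by the twist and lowest roots of fixed orbit elements for ²E₆, ³D₄, ²F₄, ²G₂.
-/

set_option autoImplicit false

namespace Cfsg.Agent.LieBlocks29

open Cfsg.Lie Cfsg.Agent.ChevGrp Cfsg.Agent.ChevTw

variable {D : ChevalleyDatum} {F : Type*} [Field F] {G : Type*} [Group G] {len : ℕ → ℕ}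
  {S : Sys D F G}

/-- The value of an integral cocharacter on a root. -/
def vw (D : ChevalleyDatum) (len : ℕ → ℕ) (A : Fin D.rank → ℤ) (r : ℕ) : ℤ :=
  ∑ i, vec D len r i * A i

/-- The cocharacter `A + √k B`. -/
noncomputable def coch (k : ℕ) (A B : Fin D.rank → ℤ) : Fin D.rank → ℝ := fun i =>
  (A i : ℝ) + Real.sqrt k * (B i : ℝ)

theorem pairR_coch (k : ℕ) (A B : Fin D.rank → ℤ) (r : ℕ) :
    pairR D len (coch k A B) r = (vw D len A r : ℝ) + Real.sqrt k * (vw D len B r : ℝ) := by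
  simp only [pairR, coch, vw, Int.cast_sum, Int.cast_mul, Finset.mul_sum, ← Finset.sum_add_distrib]
  exact Finset.sum_congr rfl fun i _ => by ring

/-- The conditions on integral weights. -/
structure LevOK (D : ChevalleyDatum) (len : ℕ → ℕ) (ρ : ℕ → ℕ) (k : ℕ) (A B : Fin D.rank → ℤ)
    (sel : ℕ → Bool) : Prop where
  simple : ∀ i : Fin D.rank, 0 ≤ vw D len A (D.simple i) ∧ 0 ≤ vw D len B (D.simple i) ∧
    0 < vw D len A (D.simple i) + vw D len B (D.simple i)
  scale : ∀ r < D.nroots,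
    (sel r = true → vw D len A (ρ r) = k * vw D len B r ∧ vw D len B (ρ r) = vw D len A r) ∧
      (sel r = false → vw D len A r = k * vw D len B (ρ r) ∧ vw D len B r = vw D len A (ρ r))
  reflect : ∀ i : Fin D.rank, ∀ r < D.nroots, sel (D.reflectRoot i r) = sel r

theorem one_le_sqrt_nat {k : ℕ} (hk : 1 ≤ k) : (1 : ℝ) ≤ Real.sqrt k :=
  Real.one_le_sqrt.2 (by exact_mod_cast hk)

/-- Weights satisfying the conditions give level data. -/
noncomputable def LevOK.levData {T : Twist S} {k : ℕ} {A B : Fin D.rank → ℤ} {sel : ℕ → Bool}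
    (h : LevOK D len T.ρ k A B sel) (hk : 1 ≤ k) : LevData T len where
  κ r := bif sel r then Real.sqrt k else (Real.sqrt k)⁻¹
  κ_pos r _ := by
    have := lt_of_lt_of_le one_pos (one_le_sqrt_nat hk)
    cases sel r <;> simp [this]
  κ_reflect i r hr := by simp only [h.reflect i r hr]
  l₀ := coch k A B
  l₀_pos i := by
    obtain ⟨h1, h2, h3⟩ := h.simple i
    rw [pairR_coch]
    have h1' : (0 : ℝ) ≤ vw D len A (D.simple i) := by exact_mod_cast h1
    have h2' : (0 : ℝ) ≤ vw D len B (D.simple i) := by exact_mod_cast h2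
    have h3' : (0 : ℝ) < vw D len A (D.simple i) + vw D len B (D.simple i) := by exact_mod_cast h3
    nlinarith [one_le_sqrt_nat hk]
  l₀_inv r hr := by
    have hs := lt_of_lt_of_le one_pos (one_le_sqrt_nat hk)
    have hsq : Real.sqrt k * Real.sqrt k = k := Real.mul_self_sqrt (Nat.cast_nonneg k)
    rw [pairR_coch, pairR_coch]
    cases hsel : sel r with
    | true =>
      obtain ⟨e1, e2⟩ := (h.scale r hr).1 hsel
      have e1' : (vw D len A (T.ρ r) : ℝ) = k * vw D len B r := by rw [e1]; push_cast; ring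
      rw [e1', e2, cond_true]
      linear_combination -(vw D len B r : ℝ) * hsq
    | false =>
      obtain ⟨e1, e2⟩ := (h.scale r hr).2 hsel
      have e1' : (vw D len A r : ℝ) = k * vw D len B (T.ρ r) := by rw [e1]; push_cast; ring
      rw [e1', e2, cond_false, eq_inv_mul_iff_mul_eq₀ hs.ne']
      linear_combination (vw D len B (T.ρ r) : ℝ) * hsq

/-- A comparison of levels decided on the integral parts. -/
def leW (D : ChevalleyDatum) (len : ℕ → ℕ) (A B : Fin D.rank → ℤ) (s x : ℕ) : Prop :=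
  0 ≤ vw D len B x - vw D len B s ∧
    0 ≤ (vw D len A x - vw D len A s) + (vw D len B x - vw D len B s)

instance (D : ChevalleyDatum) (len : ℕ → ℕ) (A B : Fin D.rank → ℤ) (s x : ℕ) :
    Decidable (leW D len A B s x) := inferInstanceAs (Decidable (_ ∧ _))

theorem pairR_le_of_leW {k : ℕ} (hk : 1 ≤ k) {A B : Fin D.rank → ℤ} {s x : ℕ} (h : leW D len A B s x) :
    pairR D len (coch k A B) s ≤ pairR D len (coch k A B) x := by
  rw [pairR_coch, pairR_coch]
  have h1 : (0 : ℝ) ≤ (vw D len B x : ℝ) - vw D len B s := by exact_mod_cast h.1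
  have h2 : (0 : ℝ) ≤ ((vw D len A x : ℝ) - vw D len A s) + ((vw D len B x : ℝ) - vw D len B s) := by
    exact_mod_cast h.2
  nlinarith [one_le_sqrt_nat hk]

section Instances

open Cfsg.Agent.Chev

theorem cert_D4 : ChevBlocks.Cert chevD4 :=
  ChevBlocks.cert_of_table _ [[(0, 0), (14, 19), (16, 21), (15, 20)], [(18, 19), (0, 0), (13, 16), (12, 15)],
    [(19, 21), (14, 16), (0, 0), (15, 17)], [(19, 20), (14, 15), (16, 17), (0, 0)]] (by decide +kernel)

theorem cert_E6 : ChevBlocks.Cert chevE6 :=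
  ChevBlocks.cert_of_table _
    [[(0, 0), (50, 61), (42, 57), (43, 58), (44, 59), (45, 60)],
    [(58, 61), (0, 0), (43, 50), (39, 47), (40, 48), (41, 49)],
    [(56, 57), (47, 50), (0, 0), (39, 43), (40, 44), (41, 45)],
    [(57, 58), (46, 47), (42, 43), (0, 0), (37, 40), (38, 41)],
    [(58, 59), (47, 48), (43, 44), (39, 40), (0, 0), (36, 38)],
    [(59, 60), (48, 49), (44, 45), (40, 41), (37, 38), (0, 0)]] (by decide +kernel)

theorem rootE6 : RootTable chevE6 lenCertE6.len := validE6.rootTable lenValidE6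

theorem rootD4 : RootTable chevD4 lenCertD4.len := validD4.rootTable lenValidD4

theorem rootF4 : RootTable chevF4 lenCertF4.len := validF4.rootTable lenValidF4

theorem rootG2 : RootTable chevG2 lenCertG2.len := validG2.rootTable lenValidG2

theorem levE6 : LevOK chevE6 lenCertE6.len twE6.root 1 (fun _ => 1) (fun _ => 1) (fun _ => true) where
  simple := by decide +kernel
  scale := by decide +kernel
  reflect := fun _ _ _ => rfl

theorem levD4 : LevOK chevD4 lenCertD4.len twD4.root 1 (fun _ => 1) (fun _ => 1) (fun _ => true) where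
  simple := by decide +kernel
  scale := by decide +kernel
  reflect := fun _ _ _ => rfl

/-- The weights of a short and of a long node. -/
def wShort (D : ChevalleyDatum) (len : ℕ → ℕ) (k : ℤ) (i : Fin D.rank) : ℤ :=
  if len (D.simple i) = 1 then k else 0

/-- The weights of a short and of a long node. -/
def wLong (D : ChevalleyDatum) (len : ℕ → ℕ) (i : Fin D.rank) : ℤ :=
  if len (D.simple i) = 1 then 0 else 1

theorem levF4 : LevOK chevF4 lenCertF4.len twF4.root 2 (wShort chevF4 lenCertF4.len 2)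
    (wLong chevF4 lenCertF4.len) (fun r => decide (lenCertF4.len r = 1)) where
  simple := by decide +kernel
  scale := by decide +kernel
  reflect := by decide +kernel

theorem levG2 : LevOK chevG2 lenCertG2.len twG2.root 3 (wShort chevG2 lenCertG2.len 3)
    (wLong chevG2 lenCertG2.len) (fun r => decide (lenCertG2.len r = 1)) where
  simple := by decide +kernel
  scale := by decide +kernel
  reflect := by decide +kernel

variable {K : Type*} [Field K] [Fintype K] {q m : ℕ}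

/-- The level data of ²E₆. -/
noncomputable def levDataE6 (hq : IsPrimePow q) (hK : Fintype.card K = q ^ 2) :
    LevData (twistE6 hq hK) lenCertE6.len :=
  LevOK.levData (T := twistE6 hq hK) levE6 le_rfl

/-- The level data of ³D₄. -/
noncomputable def levDataD4 (hq : IsPrimePow q) (hK : Fintype.card K = q ^ 3) :
    LevData (twistD4 hq hK) lenCertD4.len :=
  LevOK.levData (T := twistD4 hq hK) levD4 le_rfl

/-- The level data of ²F₄. -/
noncomputable def levDataF4 (hK : Fintype.card K = 2 ^ (2 * m + 1)) :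
    LevData (twistF4 hK) lenCertF4.len :=
  LevOK.levData (T := twistF4 hK) levF4 one_le_two

/-- The level data of ²G₂. -/
noncomputable def levDataG2 (hK : Fintype.card K = 3 ^ (2 * m + 1)) :
    LevData (twistG2 hK) lenCertG2.len :=
  LevOK.levData (T := twistG2 hK) levG2 (by norm_num)

theorem orbitRichE6 (hq : IsPrimePow q) (hK : Fintype.card K = q ^ 2) :
    OrbitRich (levDataE6 hq hK) (orbE6 hq hK) := by
  intro J s₀ hs₀
  have ep := twE6_ok.enum_posJ (T := twistE6 hq hK) (fun _ => rfl) rfl J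
  have hdata : ∀ J : Fin twE6.nOrb, ∀ s ∈ twE6.posList J, (∃ i ∈ twE6.wJ chevE6 J, chevE6.simple i = s) ∧
      ∀ x ∈ twE6.posList J, leW chevE6 lenCertE6.len (fun _ => 1) (fun _ => 1) s x := by decide +kernel
  obtain ⟨⟨i, hi, rfl⟩, hle⟩ := hdata J s₀ ((ep.2 s₀).2 hs₀)
  obtain ⟨L, t, hL, ht, hfix⟩ := (grpE6 hq hK).rich J i ⟨i, hi, rfl⟩
  exact ⟨chevE6.simple i, hs₀, 0, rfl, L, t, hL, ht, hfix, fun x hx _ =>
    pairR_le_of_leW le_rfl (hle x ((ep.2 x).2 ((hL.2 x).1 hx)))⟩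

theorem orbitRichD4 (hq : IsPrimePow q) (hK : Fintype.card K = q ^ 3) :
    OrbitRich (levDataD4 hq hK) (orbD4 hq hK) := by
  intro J s₀ hs₀
  have ep := twD4_ok.enum_posJ (T := twistD4 hq hK) (fun _ => rfl) rfl J
  have hdata : ∀ J : Fin twD4.nOrb, ∀ s ∈ twD4.posList J, (∃ i ∈ twD4.wJ chevD4 J, chevD4.simple i = s) ∧
      ∀ x ∈ twD4.posList J, leW chevD4 lenCertD4.len (fun _ => 1) (fun _ => 1) s x := by decide +kernel
  obtain ⟨⟨i, hi, rfl⟩, hle⟩ := hdata J s₀ ((ep.2 s₀).2 hs₀)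
  obtain ⟨L, t, hL, ht, hfix⟩ := (grpD4 hq hK).rich J i ⟨i, hi, rfl⟩
  exact ⟨chevD4.simple i, hs₀, 0, rfl, L, t, hL, ht, hfix, fun x hx _ =>
    pairR_le_of_leW le_rfl (hle x ((ep.2 x).2 ((hL.2 x).1 hx)))⟩

theorem orbitRichF4 (hK : Fintype.card K = 2 ^ (2 * m + 1)) :
    OrbitRich (levDataF4 hK) (orbF4 hK) := by
  intro J s₀ hs₀
  have := charTwo_of_card hK
  have ep := twF4_ok.enum_posJ (T := twistF4 hK) (fun _ => rfl) rfl J
  have hdata : ∀ J : Fin twF4.nOrb, ∀ s₀ ∈ twF4.posList J,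
      ∃ sS ∈ [(33, [33, 24]), (27, [27, 25, 28]), (28, [28, 30])],
        sS.1 ∈ twF4.posList J ∧ (∃ k ∈ List.range 2, twF4.root^[k] sS.1 = s₀) ∧
        ∀ x ∈ sS.2, leW chevF4 lenCertF4.len (wShort chevF4 lenCertF4.len 2)
          (wLong chevF4 lenCertF4.len) sS.1 x := by decide +kernel
  obtain ⟨⟨s, sup⟩, hmem, hsJ, ⟨k, -, hk⟩, hle⟩ := hdata J s₀ ((ep.2 s₀).2 hs₀)
  simp only [] at hsJ hk hle
  refine ⟨s, (ep.2 s).1 hsJ, k, hk, ?_⟩
  -- an element with the given support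
  suffices h : ∃ t u : K,
      let v : List K := [[t ^ 2 ^ m, t],
        [t ^ 2 ^ m, t, t ^ (2 ^ m + 1) + u, u ^ (2 * 2 ^ m)]].getD J.val []
      ChevTw.sel (twF4.posList J) v s ≠ 0 ∧
        ∀ x ∈ twF4.posList J, ChevTw.sel (twF4.posList J) v x ≠ 0 → x ∈ sup by
    obtain ⟨t, u, h1, h2⟩ := h
    refine ⟨twF4.posList J, _, ep, h1, ?_, fun x hx hne => pairR_le_of_leW one_le_two (hle x (h2 x hx hne))⟩
    rw [P_eq_zip ep.1 _ (by fin_cases J <;> rfl), ← fixF4_word]
    exact ((fixF4 hK J false _).2 ⟨t, u, rfl⟩).2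
  have hn : (2 : ℕ) ^ m ≠ 0 := by positivity
  simp only [List.mem_cons, List.not_mem_nil, or_false, Prod.mk.injEq] at hmem
  rcases hmem with ⟨rfl, rfl⟩ | ⟨rfl, rfl⟩ | ⟨rfl, rfl⟩ <;> fin_cases J <;>
    first
    | exact absurd hsJ (by decide)
    | skip
  · exact ⟨1, 0, by simp [ChevTw.sel, TwData.posList, twF4, List.idxOf_cons],
      by simp [ChevTw.sel, TwData.posList, twF4, List.idxOf_cons, hn]⟩
  · exact ⟨1, 0, by simp [ChevTw.sel, TwData.posList, twF4, List.idxOf_cons],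
      by simp [ChevTw.sel, TwData.posList, twF4, List.idxOf_cons, hn]⟩
  · exact ⟨0, 1, by simp [ChevTw.sel, TwData.posList, twF4, List.idxOf_cons],
      by simp [ChevTw.sel, TwData.posList, twF4, List.idxOf_cons, hn]⟩

theorem orbitRichG2 (hK : Fintype.card K = 3 ^ (2 * m + 1)) :
    OrbitRich (levDataG2 hK) (orbG2 hK) := by
  intro J s₀ hs₀
  have ep := twG2_ok.enum_posJ (T := twistG2 hK) (fun _ => rfl) rfl J
  have hdata : ∀ J : Fin twG2.nOrb, twG2.posList J = [7, 6, 8, 9, 10, 11] ∧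
    ∀ s₀ ∈ twG2.posList J, ∃ sS ∈ [(7, [7, 6, 8, 9]), (8, [8, 10]), (9, [9, 11])],
      sS.1 ∈ twG2.posList J ∧ (∃ k ∈ List.range 2, twG2.root^[k] sS.1 = s₀) ∧
        ∀ x ∈ sS.2, leW chevG2 lenCertG2.len (wShort chevG2 lenCertG2.len 3)
          (wLong chevG2 lenCertG2.len) sS.1 x := by decide +kernel
  obtain ⟨hL, hdata'⟩ := hdata J
  obtain ⟨⟨s, sup⟩, hmem, hsJ, ⟨k, -, hk⟩, hle⟩ := hdata' s₀ ((ep.2 s₀).2 hs₀)
  simp only [] at hsJ hk hle
  refine ⟨s, (ep.2 s).1 hsJ, k, hk, ?_⟩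
  suffices h : ∃ t u v : K, reeCoef (3 ^ m) t u v s ≠ 0 ∧
      ∀ x ∈ twG2.posList J, reeCoef (3 ^ m) t u v x ≠ 0 → x ∈ sup by
    obtain ⟨t, u, v, h1, h2⟩ := h
    refine ⟨twG2.posList J, reeCoef (3 ^ m) t u v, ep, h1, ?_, fun x hx hne =>
      pairR_le_of_leW (by norm_num) (hle x (h2 x hx hne))⟩
    rw [hL, ← reeWordU_eq_P]
    exact ((fixG2 hK J false _).2 ⟨t, u, v, rfl⟩).2
  have hn : (3 : ℕ) ^ m ≠ 0 := by positivity
  simp only [List.mem_cons, List.not_mem_nil, or_false, Prod.mk.injEq] at hmem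
  rw [hL]
  rcases hmem with ⟨rfl, rfl⟩ | ⟨rfl, rfl⟩ | ⟨rfl, rfl⟩
  · exact ⟨1, 0, 0, by simp [reeCoef], by simp [reeCoef]⟩
  · exact ⟨0, 1, 0, by simp [reeCoef, hn], by simp [reeCoef, hn]⟩
  · exact ⟨0, 0, 1, by simp [reeCoef, hn], by simp [reeCoef, hn]⟩

end Instances

end Cfsg.Agent.LieBlocks29
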