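import Cfsg.Agent.LieBlocks29.TwData
import Cfsg.Agent.LieBlocks.Basic
import Cfsg.Agent.Suzuki.LieModel
import Cfsg.Agent.Suzuki.Tori
import Cfsg.Agent.Suzuki.Sylow
import Cfsg.Prelude.Def_LieTypeChar

/-!
Centralisers of radical subgroups in the twisted groups and the Suzuki groups in defining characteristic.
-/

set_option autoImplicit false

namespace Cfsg.Agent.LieBlocks29

open Cfsg.Lie Cfsg.Agent.ChevGrp Cfsg.Agent.ChevTw Cfsg.Agent.SLBlocks

variable {G : Type*} [Group G]

/-- In ²E₆ and ³D₄ the elements of order prime to `p` centralising a radical subgroup are central. -/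
theorem centralCentralizers_twistedE6D4 {p : ℕ} [Fact p.Prime] (h : Cfsg.IsTwistedE6D4Char p G) :
    CentralCentralizers p G := by
  obtain ⟨K, _, _, _, q, hq, ⟨hK, ⟨e⟩⟩ | ⟨hK, ⟨e⟩⟩⟩ := h
  · exact LieBlocks.CentralCentralizers.congr (centralCentralizers_tw (grpE6 hq hK) rootE6
      (twE6_ok.isLongest (T := twistE6 hq hK) (fun _ => rfl) rfl) (levDataE6 hq hK)
      (orbitRichE6 hq hK) cert_E6 p) e
  · exact LieBlocks.CentralCentralizers.congr (centralCentralizers_tw (grpD4 hq hK) rootD4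
      (twD4_ok.isLongest (T := twistD4 hq hK) (fun _ => rfl) rfl) (levDataD4 hq hK)
      (orbitRichD4 hq hK) cert_D4 p) e

/-- In ²F₄ the elements of odd order centralising a radical `2`-subgroup are central. -/
theorem centralCentralizers_reeF4 [Fact (Nat.Prime 2)] (h : Cfsg.Lie.Iso2F4 G) :
    CentralCentralizers 2 G := by
  obtain ⟨K, _, _, m, -, hK, ⟨e⟩⟩ := h
  have := charTwo_of_card hK
  exact LieBlocks.CentralCentralizers.congr (centralCentralizers_tw (grpF4 hK) rootF4
    (twF4_ok.isLongest (T := twistF4 hK) (fun _ => rfl) rfl) (levDataF4 hK)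
    (orbitRichF4 hK) ChevBlocks.cert_F4 2) e

/-- In ²G₂ the `3'`-elements centralising a radical `3`-subgroup are central. -/
theorem centralCentralizers_reeG2 [Fact (Nat.Prime 3)] (h : Cfsg.Lie.IsoRee G) :
    CentralCentralizers 3 G := by
  obtain ⟨K, _, _, m, -, hK, ⟨e⟩⟩ := h
  have : CharP K 3 := charP_of_card Nat.prime_three hK
  exact LieBlocks.CentralCentralizers.congr (centralCentralizers_tw (grpG2 hK) rootG2
    (twG2_ok.isLongest (T := twistG2 hK) (fun _ => rfl) rfl) (levDataG2 hK)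
    (orbitRichG2 hK) ChevBlocks.cert_G2 3) e

open Cfsg.Agent.Suzuki in
/-- In a Suzuki group no nontrivial element of odd order centralises a nontrivial `2`-subgroup. -/
theorem centralCentralizers_sz [Fact (Nat.Prime 2)] {F : Type} [Field F] [Fintype F] {m : ℕ}
    [SuzukiField F m] : CentralCentralizers 2 (Cfsg.Sz F m) := by
  intro R hR hne _ z hz hord
  obtain ⟨x, hx, hx1⟩ : ∃ x ∈ R, x ≠ (1 : Cfsg.Sz F m) := by
    by_contra h
    push Not at h
    exact hne (R.eq_bot_iff_forall.2 h)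
  obtain ⟨Q, hQ⟩ := hR.exists_le_sylow
  obtain ⟨g, hg⟩ := MulAction.exists_smul_eq (Cfsg.Sz F m) (unipSylow F m) Q
  have hxu : g⁻¹ * x * g ∈ unip F m := by
    have h1 : x ∈ ((g • unipSylow F m : Sylow 2 (Cfsg.Sz F m)) : Subgroup (Cfsg.Sz F m)) := hg ▸ hQ hx
    rw [Sylow.coe_subgroup_smul, Subgroup.mem_pointwise_smul_iff_inv_smul_mem, coe_unipSylow] at h1
    simpa [MulAut.smul_def] using h1
  have hne1 : g⁻¹ * x * g ≠ 1 := fun e => hx1 (by
    rw [mul_assoc, inv_mul_eq_one] at e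
    exact mul_right_cancel (e.symm.trans (one_mul g).symm))
  have hzc : g⁻¹ * z * g ∈ Subgroup.centralizer ({g⁻¹ * x * g} : Set (Cfsg.Sz F m)) := by
    rw [Subgroup.mem_centralizer_singleton_iff]
    calc g⁻¹ * z * g * (g⁻¹ * x * g) = g⁻¹ * (z * x) * g := by group
      _ = g⁻¹ * (x * z) * g := by rw [Subgroup.mem_centralizer_iff.1 hz x hx]
      _ = _ := by group
  have hzu : g⁻¹ * z * g ∈ (unipSylow F m : Subgroup (Cfsg.Sz F m)) := by
    rw [coe_unipSylow]
    exact centralizer_unip_le hxu hne1 hzc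
  obtain ⟨k, hk⟩ := IsPGroup.iff_orderOf.1 (unipSylow F m).isPGroup' ⟨_, hzu⟩
  rw [Subgroup.orderOf_mk, show g⁻¹ * z * g = MulAut.conj g⁻¹ z by simp,
    (MulAut.conj g⁻¹).orderOf_eq] at hk
  have hk0 : k = 0 := by
    by_contra h
    exact hord (hk ▸ dvd_pow_self 2 h)
  rw [hk0, pow_zero, orderOf_eq_one_iff] at hk
  rw [hk]
  exact one_mem _

/-- In a Suzuki group the elements of odd order centralising a radical `2`-subgroup are central. -/
theorem centralCentralizers_suzuki [Fact (Nat.Prime 2)] (h : Cfsg.Lie.IsoSuzuki G) :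
    CentralCentralizers 2 G := by
  obtain ⟨F, _, _, m, hm, hF, ⟨e⟩⟩ := h
  have : Suzuki.SuzukiField F m := ⟨hm, hF⟩
  exact LieBlocks.CentralCentralizers.congr (centralCentralizers_sz (F := F) (m := m))
    (e.trans (Suzuki.szEquivLie F m).symm)

/-- The last four disjuncts of the groups of Lie type in characteristic `p`. -/
theorem centralCentralizers_twisted {p : ℕ} [Fact p.Prime]
    (h : Cfsg.IsTwistedE6D4Char p G ∨ (p = 2 ∧ Cfsg.Lie.IsoSuzuki G) ∨
      (p = 2 ∧ Cfsg.Lie.Iso2F4 G) ∨ (p = 3 ∧ Cfsg.Lie.IsoRee G)) :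
    CentralCentralizers p G := by
  rcases h with h | ⟨rfl, h⟩ | ⟨rfl, h⟩ | ⟨rfl, h⟩
  exacts [centralCentralizers_twistedE6D4 h, centralCentralizers_suzuki h,
    centralCentralizers_reeF4 h, centralCentralizers_reeG2 h]

end Cfsg.Agent.LieBlocks29
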